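import Cfsg.Agent.InvolGLThree.Frame
import Cfsg.Agent.S0111

/-!
# The odd core of the centraliser of a root element
-/

set_option autoImplicit false
set_option linter.unusedSectionVars false
set_option linter.style.haveILetI false

namespace Cfsg.Agent.InvolGLThree

open Subgroup

universe u

variable {G : Type u} [Group G]

theorem Root.third {d d' x : G} (hF : Frame d d') (h : Root d d' x) : Root d (d * d') x where
  ne := h.ne
  cube := h.cube
  comm := h.comm
  inv := by
    calc d * d' * x * (d * d') = d * d' * x * (d' * d) := by rw [hF.comm]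
      _ = d * (d' * x * d') * d := by group
      _ = d * x⁻¹ * d := by rw [h.inv]
      _ = x⁻¹ := by rw [(Commute.inv_right h.commute).eq, mul_assoc, hF.sq, mul_one]

theorem Root.map_equiv {d d' x : G} (φ : G ≃* G) (h : Root d d' x) : Root (φ d) (φ d') (φ x) :=
  ⟨fun e0 => h.ne (φ.injective (by rw [e0, map_one])), by rw [← map_mul, ← map_mul, h.cube, map_one],
    by rw [← map_mul, h.comm, map_mul], by rw [← map_mul, ← map_mul, h.inv, map_inv]⟩

/-- Square roots in a subgroup of odd order. -/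
theorem exists_split [Finite G] {K : Subgroup G} (hK : Odd (Nat.card K)) {s : G} (hs : s * s = 1)
    (hsK : ∀ g, g ∈ K → s * g * s ∈ K) {k : G} (hk : k ∈ K) :
    ∃ f i, f ∈ K ∧ i ∈ K ∧ k = f * i ∧ s * f * s = f ∧ s * i * s = i⁻¹ := by
  obtain ⟨m, hm⟩ := hK
  set y := k⁻¹ * (s * k * s) with hy
  have hyK : y ∈ K := mul_mem (inv_mem hk) (hsK k hk)
  set i := y ^ (m + 1) with hi
  have hii : i * i = y := by
    rw [hi, ← pow_add, show m + 1 + (m + 1) = Nat.card K + 1 by omega, pow_succ]
    have : (⟨y, hyK⟩ : K) ^ Nat.card K = 1 := pow_card_eq_one'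
    rw [show y ^ Nat.card K = 1 from congrArg Subtype.val this, one_mul]
  have hsi : s⁻¹ = s := inv_eq_of_mul_eq_one_right hs
  set σ := MulAut.conj s with hσ
  have hσa : ∀ g, σ g = s * g * s := fun g => by rw [hσ, MulAut.conj_apply, hsi]
  have hσσ : ∀ g, σ (σ g) = g := fun g => by
    rw [hσa, hσa]; simp only [← mul_assoc, hs, one_mul]; rw [mul_assoc, hs, mul_one]
  have hσy : σ y = y⁻¹ := by
    rw [hy, map_mul, map_inv, ← hσa k, hσσ, mul_inv_rev, inv_inv]
  have hσi : σ i = i⁻¹ := by rw [hi, map_pow, hσy, inv_pow]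
  refine ⟨k * i, i⁻¹, mul_mem hk (pow_mem hyK _), inv_mem (pow_mem hyK _), by group, ?_, ?_⟩
  · rw [← hσa, map_mul, hσi, show σ k = k * y by rw [hσa, hy, mul_inv_cancel_left], ← hii]
    group
  · rw [← hσa, map_inv, hσi]

/-- An element of order dividing three is not inverted and centralised by an involution. -/
theorem eq_one_of_fixed_of_inverted {g : G} (h3 : g * g * g = 1) {s : G} (h1 : s * g * s = g)
    (h2 : s * g * s = g⁻¹) : g = 1 := by
  rw [h1, eq_inv_iff_mul_eq_one] at h2
  rwa [h2, one_mul] at h3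

namespace Ctx

variable [Finite G] (C : Ctx G) {d d' x : G} (hF : Frame d d') (hx : Root d d' x)
include C hF hx

theorem six_odd {g : G} (hd : g * d = d * g) (hgx : g * x = x * g) (hodd : Odd (orderOf g)) :
    g = 1 ∨ g = x ∨ g = x⁻¹ := by
  rcases C.six d d' x g hF hx hd hgx with h | h | h | h | h | h
  · exact Or.inl h
  · exact Or.inr (Or.inl h)
  · exact Or.inr (Or.inr h)
  all_goals
    exfalso
    obtain ⟨m, hm⟩ := hodd
    have h1 : (g ^ 3) ^ (2 * m + 1) = 1 := by rw [← pow_mul, mul_comm, pow_mul, ← hm, pow_orderOf_eq_one, one_pow]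
    have hd3 : d ^ 3 = d := by rw [pow_succ, pow_two, hF.sq, one_mul]
    have hg3 : g ^ 3 = d := by
      rw [h]
      first
        | exact hd3
        | rw [(show Commute d x from hx.comm).mul_pow, hx.pow_three, mul_one, hd3]
        | rw [(show Commute d x from hx.comm).inv_right.mul_pow, inv_pow, hx.pow_three, inv_one, mul_one, hd3]
    rw [hg3, pow_succ, pow_mul, pow_two, hF.sq, one_pow, one_mul] at h1
    exact hF.ne h1

theorem card_two_subgroup {S : Subgroup G} (hS : IsPGroup 2 S)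
    (hSx : S ≤ centralizer ({x} : Set G)) (hdS : d ∈ S) : Nat.card S = 2 := by
  haveI : Fact (Nat.Prime 2) := ⟨Nat.prime_two⟩
  have hod : orderOf d = 2 := orderOf_eq_prime (by rw [pow_two]; exact hF.sq) hF.ne
  have hxS : x ∉ S := fun h => by
    obtain ⟨k, hk⟩ := IsPGroup.iff_orderOf.1 hS ⟨x, h⟩
    rw [← Subgroup.orderOf_coe] at hk
    have h3 : orderOf x = 3 := orderOf_eq_prime hx.pow_three hx.ne
    rw [show orderOf x = 3 from h3] at hk
    rcases k with _ | k
    · norm_num at hk
    · rw [pow_succ] at hk; omega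
  by_contra hne
  set Z : Subgroup S := zpowers ⟨d, hdS⟩ with hZ
  have hZcard : Nat.card Z = 2 := by rw [hZ, Nat.card_zpowers, ← Subgroup.orderOf_coe]; exact hod
  have hlt : Z < ⊤ := lt_top_iff_ne_top.2 fun h => hne (by rw [← hZcard, h, card_top])
  haveI := hS.isNilpotent
  obtain ⟨g, hgN, hgZ⟩ := SetLike.exists_of_lt (Group.normalizerCondition_of_isNilpotent Z hlt)
  have hmem : g * ⟨d, hdS⟩ * g⁻¹ ∈ Z := (mem_normalizer_iff.1 hgN _).1 (mem_zpowers _)
  have hgd : (g : G) * d = d * g := by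
    obtain ⟨k, hk⟩ := mem_zpowers_iff.1 hmem
    have hk' : d ^ k = (g : G) * d * (g : G)⁻¹ := by simpa using congrArg Subtype.val hk
    rcases Int.even_or_odd k with ⟨j, rfl⟩ | ⟨j, rfl⟩
    · rw [← two_mul, zpow_mul, zpow_two, hF.sq, one_zpow, eq_mul_inv_iff_mul_eq, one_mul,
        eq_comm, mul_eq_left] at hk'
      exact absurd hk' hF.ne
    · rw [zpow_add, zpow_mul, zpow_two, hF.sq, one_zpow, one_mul, zpow_one,
        eq_mul_inv_iff_mul_eq] at hk'
      exact hk'.symm
  have hgx : (g : G) * x = x * g := mem_centralizer_singleton_iff.1 (hSx g.2)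
  rcases C.six d d' x g hF hx hgd hgx with h | h | h | h | h | h
  · exact hgZ (by rw [show g = 1 from Subtype.ext h]; exact one_mem Z)
  · exact hxS (h ▸ g.2)
  · exact hxS (by simpa using inv_mem (h ▸ g.2 : x⁻¹ ∈ S))
  · exact hgZ (by rw [show g = ⟨d, hdS⟩ from Subtype.ext h]; exact mem_zpowers _)
  · exact hxS (by simpa [← mul_assoc, hF.sq] using mul_mem hdS (h ▸ g.2 : d * x ∈ S))
  · exact hxS (by simpa [← mul_assoc, hF.sq] using inv_mem (mul_mem hdS (h ▸ g.2 : d * x⁻¹ ∈ S)))

theorem exists_core : ∃ K : Subgroup G, Odd (Nat.card K) ∧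
    Nat.card (centralizer ({x} : Set G)) = 2 * Nat.card K ∧
    ∀ g, g ∈ K ↔ g * x = x * g ∧ Odd (orderOf g) := by
  haveI : Fact (Nat.Prime 2) := ⟨Nat.prime_two⟩
  set N : Subgroup G := centralizer ({x} : Set G) with hN
  have hdN : d ∈ N := mem_centralizer_singleton_iff.2 hx.comm
  set d₁ : N := ⟨d, hdN⟩ with hd₁
  have hod : orderOf d₁ = 2 := by
    rw [← Subgroup.orderOf_coe]; exact orderOf_eq_prime (by rw [pow_two]; exact hF.sq) hF.ne
  obtain ⟨P, hP⟩ := (IsPGroup.of_card (n := 1)
    (show Nat.card (zpowers d₁) = 2 ^ 1 by rw [Nat.card_zpowers, hod, pow_one])).exists_le_sylow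
  have hP2 : Nat.card (P : Subgroup N) = 2 := by
    refine Eq.trans ?_ (C.card_two_subgroup hF hx (P.2.map N.subtype)
      (by rintro _ ⟨y, -, rfl⟩; exact y.2) ⟨d₁, hP (mem_zpowers _), rfl⟩)
    exact Nat.card_congr ((P : Subgroup N).equivMapOfInjective _ Subtype.val_injective).toEquiv
  have hidx : (P : Subgroup N).index % 2 = 1 := by
    rcases Nat.mod_two_eq_zero_or_one (P : Subgroup N).index with h | h
    · exact absurd (Nat.dvd_of_mod_eq_zero h) P.not_dvd_index
    · exact h
  have hrel : (⊥ : Subgroup N).relIndex (P : Subgroup N) = 2 := by rw [relIndex_bot_left, hP2]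
  rcases Cfsg.Agent.S0111.result P ⊥ bot_le hrel d₁ hod (hP (mem_zpowers _))
      (fun h => hF.ne (congrArg Subtype.val (mem_bot.1 h))) with ⟨M, hM, hMi, -⟩ | ⟨g, hg⟩
  · haveI := hM
    have hMc : 2 * Nat.card M = Nat.card N := by rw [← M.card_mul_index, hMi, mul_comm]
    have hNc : Nat.card N = 2 * (P : Subgroup N).index := by
      rw [← (P : Subgroup N).card_mul_index, hP2]
    have hodd : Odd (Nat.card M) := ⟨(P : Subgroup N).index / 2, by omega⟩
    have hMcard : Nat.card (M.map N.subtype) = Nat.card M :=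
      (Nat.card_congr (M.equivMapOfInjective _ Subtype.val_injective).toEquiv).symm
    refine ⟨M.map N.subtype, hMcard.symm ▸ hodd, by rw [hMcard, ← hMc], fun g => ⟨?_, ?_⟩⟩
    · rintro ⟨y, hy, rfl⟩
      refine ⟨mem_centralizer_singleton_iff.1 y.2, hodd.of_dvd_nat ?_⟩
      show orderOf (y : G) ∣ Nat.card M
      rw [Subgroup.orderOf_coe]
      exact M.orderOf_dvd_natCard hy
    · rintro ⟨h1, h2⟩
      refine ⟨⟨g, mem_centralizer_singleton_iff.2 h1⟩, ?_, rfl⟩
      obtain ⟨m, hm⟩ := h2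
      set g₁ : N := ⟨g, mem_centralizer_singleton_iff.2 h1⟩
      have hg₁ : orderOf g₁ = 2 * m + 1 := by rw [← Subgroup.orderOf_coe]; exact hm
      have hpe : g₁ = (g₁ ^ 2) ^ (m + 1) := by
        rw [← pow_mul, show 2 * (m + 1) = 2 * m + 1 + 1 by omega, pow_succ, ← hg₁,
          pow_orderOf_eq_one, one_mul]
      rw [hpe]
      exact pow_mem (Subgroup.sq_mem_of_index_two hMi g₁) _
  · exfalso
    have hye := mem_bot.1 hg
    rw [mul_inv_eq_one, mul_eq_left] at hye
    exact hF.ne (congrArg Subtype.val hye)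

end Ctx

end Cfsg.Agent.InvolGLThree
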