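import Cfsg.Agent.InvolGLThree.Core

/-!
# Decomposition of the core of a root centraliser; bounds on its order
-/

set_option autoImplicit false
set_option linter.unusedSectionVars false
set_option linter.style.haveILetI false

namespace Cfsg.Agent.InvolGLThree

open Subgroup

universe u

variable {G : Type u} [Group G]

/-- The core of a root element. -/
structure IsCore (x : G) (K : Subgroup G) : Prop where
  odd : Odd (Nat.card K)
  card : Nat.card (centralizer ({x} : Set G)) = 2 * Nat.card K
  mem : ∀ g, g ∈ K ↔ g * x = x * g ∧ Odd (orderOf g)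

variable [Finite G] (C : Ctx G) {d d' x : G} (hF : Frame d d') (hx : Root d d' x)
variable {K : Subgroup G} (hK : IsCore x K)

namespace Ctx

include hF hx hK in
theorem conj_mem_core {s g : G} (hs : s = d ∨ s = d' ∨ s = d * d') (hg : g ∈ K) :
    s * g * s ∈ K ∧ s * s = 1 := by
  have hss : s * s = 1 := by
    rcases hs with rfl | rfl | rfl
    · exact hF.sq
    · exact hF.sq'
    · exact hF.prod_sq
  have hsi : s⁻¹ = s := inv_eq_of_mul_eq_one_right hss
  have hsx : s * x * s = x ∨ s * x * s = x⁻¹ := by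
    rcases hs with rfl | rfl | rfl
    · exact Or.inl (by rw [hx.comm, mul_assoc, hF.sq, mul_one])
    · exact Or.inr hx.inv
    · exact Or.inr (hx.third hF).inv
  refine ⟨(hK.mem _).2 ⟨?_, ?_⟩, hss⟩
  · obtain ⟨hgx, -⟩ := (hK.mem g).1 hg
    have hσ : ∀ a, MulAut.conj s a = s * a * s := fun a => by rw [MulAut.conj_apply, hsi]
    rw [← hσ]
    have key : Commute (MulAut.conj s g) (MulAut.conj s x) :=
      Commute.map (hgx : Commute g x) (MulAut.conj s).toMonoidHom
    rw [hσ x] at key
    rcases hsx with e | e <;> rw [e] at key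
    · exact key.eq
    · exact (Commute.inv_right_iff.1 key).eq
  · have : s * g * s = MulAut.conj s g := by rw [MulAut.conj_apply, hsi]
    rw [this, MulEquiv.orderOf_eq]
    exact ((hK.mem g).1 hg).2

include hK in
theorem mem_core_of_three {g : G} (hg : g * x = x * g) (h3 : g * g * g = 1) : g ∈ K := by
  refine (hK.mem g).2 ⟨hg, ?_⟩
  have : orderOf g ∣ 3 := orderOf_dvd_of_pow_eq_one (by rw [pow_succ, pow_two, h3])
  exact Odd.of_dvd_nat (by decide) this

include hx hK in
theorem self_mem_core : x ∈ K := mem_core_of_three hK rfl hx.cube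

include C hF hx hK in
theorem decomp {k : G} (hk : k ∈ K) : ∃ f c g, f ∈ K ∧ g ∈ K ∧ c ∈ zpowers x ∧ k = f * c * g ∧
    Commute f d' ∧ Commute g (d * d') := by
  have hsd' : ∀ g, g ∈ K → d' * g * d' ∈ K := fun g hg =>
    (conj_mem_core hF hx hK (Or.inr (Or.inl rfl)) hg).1
  have hsd : ∀ g, g ∈ K → d * g * d ∈ K := fun g hg => (conj_mem_core hF hx hK (Or.inl rfl) hg).1
  obtain ⟨f, j, hf, hj, hkfj, hfix, hinv⟩ := exists_split hK.odd hF.sq' hsd' hk
  obtain ⟨c, g, hc, hg, hjcg, hcfix, hginv⟩ := exists_split hK.odd hF.sq hsd hj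
  have hcd : c * d = d * c := by
    calc c * d = d * c * d * d := by rw [hcfix]
      _ = d * c := by rw [mul_assoc, hF.sq, mul_one]
  have hcx := ((hK.mem c).1 hc).1
  have hcmem : c ∈ zpowers x := by
    rcases C.six_odd hF hx hcd hcx ((hK.mem c).1 hc).2 with h | h | h <;> rw [h]
    · exact one_mem _
    · exact mem_zpowers x
    · exact inv_mem (mem_zpowers x)
  obtain ⟨n, hn⟩ := mem_zpowers_iff.1 hcmem
  have hd'c : d' * c * d' = c⁻¹ := by
    have h1 : ∀ a, MulAut.conj d' a = d' * a * d' := fun a => by rw [MulAut.conj_apply, hF.inv_d']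
    rw [← h1, ← hn, map_zpow, h1, hx.inv, inv_zpow]
  have hcg : Commute c g := by
    rw [← hn]
    exact Commute.zpow_left (show Commute x g from (((hK.mem g).1 hg).1).symm) n
  have hd'g : d' * g * d' = g⁻¹ := by
    have e1 : g = c⁻¹ * j := by rw [hjcg, inv_mul_cancel_left]
    have h1 : ∀ a, MulAut.conj d' a = d' * a * d' := fun a => by rw [MulAut.conj_apply, hF.inv_d']
    have hcj : Commute c j := by
      rw [hjcg]; exact (Commute.refl c).mul_right hcg
    rw [e1, ← h1, map_mul, map_inv, h1, h1, hd'c, hinv, inv_inv, mul_inv_rev, inv_inv]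
    exact hcj.inv_right.eq
  refine ⟨f, c, g, hf, hg, hcmem, by rw [hkfj, hjcg, mul_assoc], ?_, ?_⟩
  · show f * d' = d' * f
    calc f * d' = d' * f * d' * d' := by rw [hfix]
      _ = d' * f := by rw [mul_assoc, hF.sq', mul_one]
  · show g * (d * d') = d * d' * g
    have e2 : d * d' * g * (d' * d) = g := by
      calc d * d' * g * (d' * d) = d * (d' * g * d') * d := by group
        _ = d * g⁻¹ * d := by rw [hd'g]
        _ = (d * g * d)⁻¹ := by rw [mul_inv_rev, mul_inv_rev, hF.inv_d, mul_assoc]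
        _ = g := by rw [hginv, inv_inv]
    rw [← hF.comm] at e2
    calc g * (d * d') = d * d' * g * (d * d') * (d * d') := by rw [e2]
      _ = d * d' * g := by rw [mul_assoc, hF.prod_sq, mul_one]

/-- The part of a core centralised by an involution. -/
def fixPart (K : Subgroup G) (s : G) : Subgroup G := K ⊓ centralizer ({s} : Set G)

include C hF hK in
theorem card_fixPart_dvd : Nat.card (fixPart K d') ∣ 3 := by
  have h1 : Nat.card (fixPart K d') ∣ Nat.card (centralizer ({d'} : Set G)) :=
    card_dvd_of_le inf_le_right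
  rw [C.cent d' d hF.swap] at h1
  have h2 : Odd (Nat.card (fixPart K d')) := hK.odd.of_dvd_nat (card_dvd_of_le inf_le_left)
  have h16 : (Nat.card (fixPart K d')).Coprime 16 := by
    rw [show 16 = 2 ^ 4 by norm_num]
    exact Nat.Coprime.pow_right _ (Nat.coprime_two_right.2 h2)
  exact h16.dvd_of_dvd_mul_left (by norm_num; exact h1)

include C hF hx hK in
theorem card_core_le :
    Nat.card K ≤ Nat.card (fixPart K d') * 3 * Nat.card (fixPart K (d * d')) := by
  have hz : Nat.card (zpowers x) = 3 := by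
    rw [Nat.card_zpowers]; exact orderOf_eq_prime hx.pow_three hx.ne
  rw [← hz, ← Nat.card_prod, ← Nat.card_prod]
  let φ : (fixPart K d' × zpowers x) × fixPart K (d * d') → G :=
    fun p => (p.1.1 : G) * (p.1.2 : G) * (p.2 : G)
  calc Nat.card K ≤ Nat.card (Set.range φ) := by
        refine Nat.card_le_card_of_injective (fun k => ⟨(k : G), ?_⟩)
          (fun a b h => Subtype.ext (congrArg Subtype.val h :))
        obtain ⟨f, c, g, hf, hg, hc, hkk, hfd, hgd⟩ := C.decomp hF hx hK k.2
        exact ⟨((⟨f, hf, mem_centralizer_singleton_iff.2 hfd⟩, ⟨c, hc⟩),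
          ⟨g, hg, mem_centralizer_singleton_iff.2 hgd⟩), hkk.symm⟩
    _ ≤ _ := Finite.card_range_le φ

include C hF hx hK in
theorem nine_le_core : 9 ∣ Nat.card K := by
  haveI : Fact (Nat.Prime 3) := ⟨Nat.prime_three⟩
  have hox : orderOf x = 3 := orderOf_eq_prime hx.pow_three hx.ne
  obtain ⟨P, hP⟩ := (IsPGroup.of_card (n := 1)
    (show Nat.card (zpowers x) = 3 ^ 1 by rw [Nat.card_zpowers, hox, pow_one])).exists_le_sylow
  have hPc : Nat.card (P : Subgroup G) = 27 := by
    rw [P.card_eq_multiplicity, C.card, Nat.factorization_def _ Nat.prime_three,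
      show (5616 : ℕ) = 3 ^ 3 * 208 by norm_num,
      padicValNat.mul (by norm_num) (by norm_num), padicValNat.prime_pow,
      padicValNat.eq_zero_of_not_dvd (by norm_num)]
    norm_num
  set S : Subgroup G := (P : Subgroup G) ⊓ centralizer ({x} : Set G) with hS
  have hSK : S ≤ K := fun g hg => (hK.mem g).2 ⟨mem_centralizer_singleton_iff.1 hg.2, by
    refine Odd.of_dvd_nat (show Odd 27 by decide) ?_
    rw [← hPc]
    exact (P : Subgroup G).orderOf_dvd_natCard hg.1⟩
  obtain ⟨k, hk⟩ := IsPGroup.iff_card.1 (P.2.to_le (inf_le_left : S ≤ (P : Subgroup G)))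
  have hxS : zpowers x ≤ S := le_inf hP (zpowers_le.2 (mem_centralizer_singleton_iff.2 rfl))
  suffices hk2 : 2 ≤ k by
    exact (show 9 ∣ Nat.card S by rw [hk]; exact pow_dvd_pow 3 hk2).trans (card_dvd_of_le hSK)
  by_contra hk2
  have hSx : S = zpowers x := by
    refine (eq_of_le_of_card_ge hxS ?_).symm
    rw [hk, Nat.card_zpowers, hox]
    exact Nat.pow_le_pow_right (by norm_num) (show k ≤ 1 by omega)
  haveI : Nontrivial P := Finite.one_lt_card_iff_nontrivial.1 (by rw [hPc]; norm_num)
  haveI := P.2.center_nontrivial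
  obtain ⟨z, hz⟩ := exists_ne (1 : Subgroup.center P)
  have hzc : ∀ g, g ∈ (P : Subgroup G) → g * ((z : P) : G) = ((z : P) : G) * g := fun g hg =>
    congrArg Subtype.val (mem_center_iff.1 z.2 ⟨g, hg⟩)
  have hzS : ((z : P) : G) ∈ S := ⟨(z : P).2, mem_centralizer_singleton_iff.2
    (hzc x (hP (mem_zpowers x))).symm⟩
  rw [hSx] at hzS
  have hz1 : ((z : P) : G) ≠ 1 := fun h => hz (Subtype.ext (Subtype.ext h))
  have hxz : x ∈ zpowers ((z : P) : G) := by
    have hle : zpowers ((z : P) : G) ≤ zpowers x := zpowers_le.2 hzS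
    rw [eq_of_le_of_card_ge hle ?_]
    · exact mem_zpowers x
    · rw [Nat.card_zpowers, Nat.card_zpowers, hox]
      have hd3 : orderOf ((z : P) : G) ∣ 3 := by
        exact ((zpowers x).orderOf_dvd_natCard hzS).trans (by rw [Nat.card_zpowers, hox])
      rcases (Nat.dvd_prime Nat.prime_three).1 hd3 with h | h
      · exact absurd (orderOf_eq_one_iff.1 h) hz1
      · rw [h]
  have hPS : (P : Subgroup G) ≤ S := fun g hg => ⟨hg, mem_centralizer_singleton_iff.2 (by
    obtain ⟨n, hn⟩ := mem_zpowers_iff.1 hxz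
    rw [← hn]
    exact (Commute.zpow_right (hzc g hg) n).eq)⟩
  have := Subgroup.card_le_of_le hPS
  rw [hPc, hSx, Nat.card_zpowers, hox] at this
  omega

include C hF hx hK in
theorem card_core : Nat.card K = 9 ∨ Nat.card K = 27 := by
  have h1 := C.card_core_le hF hx hK
  have ha := C.card_fixPart_dvd hF (K := K) hK
  have hb := C.card_fixPart_dvd hF.third (K := K) hK
  have hA := Nat.le_of_dvd (by norm_num) ha
  have hB := Nat.le_of_dvd (by norm_num) hb
  have h27 : Nat.card K ≤ 27 := h1.trans (by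
    calc _ ≤ 3 * 3 * 3 := Nat.mul_le_mul (Nat.mul_le_mul_right 3 hA) hB
      _ = 27 := by norm_num)
  obtain ⟨m, hm⟩ := C.nine_le_core hF hx hK
  obtain ⟨l, hl⟩ := hK.odd
  omega

end Ctx

end Cfsg.Agent.InvolGLThree
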