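import Mathlib

/-!
# Frames (pairs of commuting involutions), root elements, and the local axioms
-/

set_option autoImplicit false

namespace Cfsg.Agent.InvolGLThree

universe u

variable {G : Type u} [Group G]

/-- Two distinct commuting involutions. -/
structure Frame (d d' : G) : Prop where
  sq : d * d = 1
  ne : d ≠ 1
  sq' : d' * d' = 1
  ne' : d' ≠ 1
  dist : d ≠ d'
  comm : d * d' = d' * d

/-- A root element of a frame: order three, centralised by `d`, inverted by `d'`. -/
structure Root (d d' x : G) : Prop where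
  ne : x ≠ 1
  cube : x * x * x = 1
  comm : d * x = x * d
  inv : d' * x * d' = x⁻¹

/-- Equality up to inversion. -/
def Same (x y : G) : Prop := y = x ∨ y = x⁻¹

/-- The local data of an involution with centraliser `GL (2, 3)`. -/
structure Ctx (G : Type u) [Group G] : Prop where
  card : Nat.card G = 5616
  trans : ∀ d d' f f' : G, Frame d d' → Frame f f' → ∃ g, g * d * g⁻¹ = f ∧ g * d' * g⁻¹ = f'
  cent : ∀ d d' : G, Frame d d' → Nat.card (Subgroup.centralizer ({d} : Set G)) = 48
  four : ∀ d d' c : G, Frame d d' → c * d = d * c → c * d' = d' * c →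
    c = 1 ∨ c = d ∨ c = d' ∨ c = d * d'
  two : ∀ d d' : G, Frame d d' → ∃ P Q, Root d d' P ∧ Root d d' Q ∧ ¬ Same P Q ∧
    ∀ x, Root d d' x → Same P x ∨ Same Q x
  six : ∀ d d' x c : G, Frame d d' → Root d d' x → c * d = d * c → c * x = x * c →
    c = 1 ∨ c = x ∨ c = x⁻¹ ∨ c = d ∨ c = d * x ∨ c = d * x⁻¹
  pair : ∀ d d' x y : G, Frame d d' → Root d d' x → Root d d' y → ¬ Same x y →
    (x * y) ^ 4 = 1 ∨ (x * y) ^ 6 = 1
  conjRoot : ∀ d d' x f f' y : G, Frame d d' → Root d d' x → Frame f f' → Root f f' y → IsConj x y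

namespace Frame

variable {d d' : G} (h : Frame d d')
include h

theorem inv_d : d⁻¹ = d := inv_eq_of_mul_eq_one_right h.sq
theorem inv_d' : d'⁻¹ = d' := inv_eq_of_mul_eq_one_right h.sq'

theorem prod_sq : d * d' * (d * d') = 1 := by
  rw [mul_assoc, ← mul_assoc d', ← h.comm, mul_assoc d, h.sq', mul_one, h.sq]

theorem prod_ne : d * d' ≠ 1 := fun e => h.dist (by
  rw [← mul_eq_one_iff_inv_eq.1 e, h.inv_d])

theorem swap : Frame d' d := ⟨h.sq', h.ne', h.sq, h.ne, h.dist.symm, h.comm.symm⟩

theorem third : Frame d (d * d') where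
  sq := h.sq
  ne := h.ne
  sq' := h.prod_sq
  ne' := h.prod_ne
  dist := fun e => h.ne' (mul_eq_left.1 e.symm)
  comm := by rw [← mul_assoc, h.sq, one_mul, mul_assoc, ← h.comm, ← mul_assoc, h.sq, one_mul]

theorem mid : Frame d' (d * d') := by rw [h.comm]; exact h.swap.third

theorem prod_mul_left : d * (d * d') = d' := by rw [← mul_assoc, h.sq, one_mul]

theorem prod_mul_right : d' * (d * d') = d := by rw [h.comm, ← mul_assoc, h.sq', one_mul]

end Frame

namespace Same

variable {x y z : G}

theorem refl (x : G) : Same x x := Or.inl rfl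

theorem symm (h : Same x y) : Same y x := by
  rcases h with rfl | rfl
  · exact Or.inl rfl
  · exact Or.inr (inv_inv _).symm

theorem trans (h : Same x y) (h' : Same y z) : Same x z := by
  rcases h with rfl | rfl <;> rcases h' with rfl | rfl
  · exact Or.inl rfl
  · exact Or.inr rfl
  · exact Or.inr rfl
  · exact Or.inl (inv_inv _)

theorem commute_left (h : Same x y) (hz : Commute x z) : Commute y z := by
  rcases h with rfl | rfl
  · exact hz
  · exact hz.inv_left

end Same

namespace Root

variable {d d' x : G} (h : Root d d' x)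
include h

theorem pow_three : x ^ 3 = 1 := by rw [pow_succ, pow_two]; exact h.cube

theorem inv_eq : x⁻¹ = x * x :=
  inv_eq_of_mul_eq_one_right (by rw [← mul_assoc]; exact h.cube)

theorem ne_inv : x⁻¹ ≠ x := fun e => h.ne (by
  rw [h.inv_eq, mul_eq_left] at e
  exact e)

theorem inv_root (hF : Frame d d') : Root d d' x⁻¹ where
  ne := inv_ne_one.2 h.ne
  cube := by rw [← mul_inv_rev, ← mul_inv_rev, ← mul_assoc, h.cube, inv_one]
  comm := (Commute.inv_right (h.comm : Commute d x)).eq
  inv := by
    rw [inv_inv, ← h.inv, ← mul_assoc, ← mul_assoc, hF.sq', one_mul, mul_assoc, hF.sq', mul_one]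

theorem commute : Commute d x := h.comm

end Root

end Cfsg.Agent.InvolGLThree
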