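import Cfsg.Agent.InvolGLThree.Neighbour
import Cfsg.Agent.Spec.StPres.Final

/-!
# The six root groups and their Steinberg relations
-/

set_option autoImplicit false
set_option linter.unusedSectionVars false
set_option linter.style.haveILetI false

namespace Cfsg.Agent.InvolGLThree

universe u

variable {G : Type u} [Group G]

/-- The commutator relation `a * b = c * b * a`. -/
def Rel (a b c : G) : Prop := a * b = c * b * a

theorem rel_comm (a b : G) : Rel a b (a * b * a⁻¹ * b⁻¹) := by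
  unfold Rel; group

theorem rel_inv_right {a b c : G} (h : Rel a b c) (hb : Commute b c) : Rel a b⁻¹ c⁻¹ := by
  unfold Rel at h ⊢
  have h1 : a * b * a⁻¹ = c * b := by rw [h, mul_inv_cancel_right]
  have h2 : a * b⁻¹ * a⁻¹ = b⁻¹ * c⁻¹ := by rw [← conj_inv, h1, mul_inv_rev]
  rw [hb.inv_inv.eq] at h2
  rw [← h2, inv_mul_cancel_right]

theorem rel_inv_left {a b c : G} (h : Rel a b c) (ha : Commute a c) : Rel a⁻¹ b c⁻¹ := by
  unfold Rel at h ⊢
  calc a⁻¹ * b = a⁻¹ * (c⁻¹ * (c * b * a)) * a⁻¹ := by group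
    _ = a⁻¹ * (c⁻¹ * (a * b)) * a⁻¹ := by rw [h]
    _ = a⁻¹ * ((c⁻¹ * a) * b) * a⁻¹ := by rw [mul_assoc c⁻¹]
    _ = a⁻¹ * ((a * c⁻¹) * b) * a⁻¹ := by rw [ha.inv_right.eq]
    _ = c⁻¹ * b * a⁻¹ := by group

theorem rel_pow {a b c : G} (h : Rel a b c) (ha : Commute a c) (hb : Commute b c) (m n : ℕ) :
    a ^ m * b ^ n = c ^ (m * n) * b ^ n * a ^ m := by
  have hn : ∀ n, a * b ^ n = c ^ n * b ^ n * a := by
    intro n
    induction n with
    | zero => simp
    | succ n ih =>
      calc a * b ^ (n + 1) = (a * b ^ n) * b := by rw [pow_succ, mul_assoc]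
        _ = c ^ n * b ^ n * (a * b) := by rw [ih, mul_assoc]
        _ = c ^ n * (b ^ n * c) * b * a := by rw [h]; simp only [mul_assoc]
        _ = c ^ n * (c * b ^ n) * b * a := by rw [(hb.pow_left n).eq]
        _ = c ^ (n + 1) * b ^ (n + 1) * a := by simp only [pow_succ, mul_assoc]
  induction m with
  | zero => simp
  | succ m ih =>
    calc a ^ (m + 1) * b ^ n = a ^ m * (a * b ^ n) := by rw [pow_succ, mul_assoc]
      _ = (a ^ m * c ^ n) * b ^ n * a := by rw [hn]; simp only [mul_assoc]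
      _ = c ^ n * (a ^ m * b ^ n) * a := by rw [(ha.pow_pow m n).eq]; simp only [mul_assoc]
      _ = c ^ n * (c ^ (m * n) * b ^ n * a ^ m) * a := by rw [ih]
      _ = c ^ ((m + 1) * n) * b ^ n * a ^ (m + 1) := by
        rw [show (m + 1) * n = n + m * n by ring, pow_add c n, pow_succ a m]; simp only [mul_assoc]

/-- Among the commutator relations of a hexagon, the last sign is forced. -/
theorem rel_sign {x y u1 u2 w1 w2 : G} (hp : (x * y) ^ 4 = 1 ∨ (x * y) ^ 6 = 1)
    (hxu : Rel x u2 u1) (hyu : Rel y u1 u2) (hwy : Rel w2 y w1)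
    (hwx : Rel w1 x w2 ∨ Rel w1 x w2⁻¹)
    (cxu : Commute x u1) (cyu : Commute y u2) (cxw : Commute x w2) (cyw : Commute y w1)
    (cu : Commute u1 u2) (cw : Commute w1 w2) (hu1 : u1 ^ 3 = 1) (hu2 : u2 ^ 3 = 1)
    (hu1n : u1 ≠ 1) (hw1 : w1 ^ 3 = 1) (hne : w2 ≠ w1) : Rel w1 x w2 := by
  rcases hwx with h | h
  · exact h
  exfalso
  obtain ⟨p, hpd⟩ : ∃ p : G ≃* G, ∀ a, p a = x * (y * a * y⁻¹) * x⁻¹ :=
    ⟨(MulAut.conj y).trans (MulAut.conj x), fun a => rfl⟩
  have hiter : ∀ (n : ℕ) (a : G), (x * y) ^ n = 1 → p^[n] a = a := by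
    intro n a hn
    have e1 : ∀ n, p^[n] a = (x * y) ^ n * a * ((x * y) ^ n)⁻¹ := by
      intro n
      induction n with
      | zero => simp
      | succ n ih => rw [Function.iterate_succ_apply', ih, hpd, pow_succ', mul_inv_rev, mul_inv_rev]; simp only [mul_assoc]
    rw [e1, hn, one_mul, inv_one, mul_one]
  have ey1 : y * u1 * y⁻¹ = u2 * u1 := by rw [hyu, mul_inv_cancel_right]
  have ey2 : y * u2 * y⁻¹ = u2 := by rw [cyu.eq, mul_inv_cancel_right]
  have ex1 : x * u1 * x⁻¹ = u1 := by rw [cxu.eq, mul_inv_cancel_right]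
  have ex2 : x * u2 * x⁻¹ = u1 * u2 := by rw [hxu, mul_inv_cancel_right]
  have p1 : p u1 = u1 ^ 2 * u2 := by
    rw [hpd, ey1, ← conj_mul, ex1, ex2, pow_two, mul_assoc, ← cu.eq, ← mul_assoc]
  have p2 : p u2 = u1 * u2 := by rw [hpd, ey2, ex2]
  have pp : p (p u1) = u1⁻¹ := by
    rw [p1, map_mul, map_pow, p1, p2, (cu.pow_left 2).mul_pow, ← pow_mul,
      mul_assoc, ← mul_assoc (u2 ^ 2), ← (cu.pow_right 2).eq, mul_assoc u1, ← pow_succ, hu2, mul_one,
      ← pow_succ, eq_inv_iff_mul_eq_one, ← pow_succ,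
      show 2 * 2 + 1 + 1 = 3 * 2 by norm_num, pow_mul, hu1, one_pow]
  have h4 : (x * y) ^ 4 = 1 := by
    rcases hp with hp | hp
    · exact hp
    exfalso
    have e := hiter 6 u1 hp
    simp only [Function.iterate_succ_apply, Function.iterate_zero_apply, pp, map_inv, inv_inv] at e
    rw [inv_eq_iff_mul_eq_one, ← pow_two] at e
    exact hu1n (by rw [← hu1, pow_succ, e, one_mul])
  have ewx : x * w1 * x⁻¹ = w2 * w1 := by
    have e1 : w2 * w1 * x = x * w1 := by
      calc w2 * w1 * x = w2 * (w1 * x) := mul_assoc _ _ _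
        _ = w2 * (w2⁻¹ * x * w1) := by rw [h]
        _ = x * w1 := by group
    rw [← e1, mul_inv_cancel_right]
  have ex2' : x * w2 * x⁻¹ = w2 := by rw [cxw.eq, mul_inv_cancel_right]
  have ey1' : y * w1 * y⁻¹ = w1 := by rw [cyw.eq, mul_inv_cancel_right]
  have ey2' : y * w2 * y⁻¹ = w1⁻¹ * w2 := by
    have e1 : w1⁻¹ * w2 * y = y * w2 := by
      rw [mul_assoc, hwy]; group
    rw [← e1, mul_inv_cancel_right]
  have q1 : p w1 = w2 * w1 := by rw [hpd, ey1', ewx]
  have q2 : p w2 = w1⁻¹ := by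
    rw [hpd, ey2', ← conj_mul, ← conj_inv, ewx, ex2', mul_inv_rev, inv_mul_cancel_right]
  have qq : p (p w1) = w2 := by
    rw [q1, map_mul, q1, q2, cw.symm.eq, inv_mul_cancel_left]
  have e := hiter 4 w1 h4
  simp only [Function.iterate_succ_apply, Function.iterate_zero_apply] at e
  rw [qq, q2, map_inv, q1, inv_eq_iff_mul_eq_one, mul_assoc, ← pow_two, ← hw1, pow_succ' w1 2,
    mul_left_inj] at e
  exact hne e

variable [Finite G]

/-- A Steinberg system for `SL (3, 3)`. -/
theorem Ctx.exists_sys (C : Ctx G) {t a : G} (hF : Frame t a) :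
    ∃ x : Fin 3 → Fin 3 → ZMod 3 → G, Spec.StPres.Sys (ZMod 3) 3 x ∧ x 0 1 1 ≠ 1 := by
  obtain ⟨P, Q, hP, hQ, hPQ, -⟩ := C.two t a hF
  have hF1 : Frame a t := hF.swap
  have hF2 : Frame (t * a) t := hF.third.swap
  have c12 : ∀ v, Root t a v → Root t (t * a) v := fun v hv => hv.third hF
  have c31 : ∀ v, Root (t * a) t v → Root (t * a) a v := fun v hv => by
    have := hv.third hF2
    rwa [show t * a * t = a by rw [hF.comm, mul_assoc, hF.sq, mul_one]] at this
  have c23 : ∀ v, Root a t v → Root a (t * a) v := fun v hv => by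
    have := hv.third hF1
    rwa [← hF.comm] at this
  obtain ⟨X32, hX32, hc1⟩ := C.exists_neighbour hF hP
  obtain ⟨X13, hX13, hc2⟩ := C.exists_neighbour hF.third (c12 P hP)
  obtain ⟨X23, hX23, hc3⟩ := C.exists_neighbour hF hQ
  obtain ⟨X31, hX31, hc4⟩ := C.exists_neighbour hF.third (c12 Q hQ)
  have hn1 : ¬ Same X32 X23 := fun h =>
    hPQ (C.neighbour_unique hF1 hX32 hP hc1.symm hQ (h.symm.commute_left hc3.symm))
  have hn2 : ¬ Same X13 X31 := fun h =>
    hPQ (C.neighbour_unique hF.third.swap hX13 (c12 P hP) hc2.symm (c12 Q hQ)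
      (h.symm.commute_left hc4.symm))
  -- the two remaining edges
  have edge : ∀ (R S T T' : G), Root t a R → Root a t S → Root (t * a) t T → Root (t * a) t T' →
      Commute R S → Commute R T → ¬ Same T T' → Commute S T' := by
    intro R S T T' hR hS hT hT' hRS hRT hTT'
    obtain ⟨z, hz, hSz⟩ := C.exists_neighbour hF1.third (hS.third hF1)
    have hz' : Root (t * a) a z := by rwa [← hF.comm] at hz
    have hz'' : Root (t * a) t z := by
      have := hz'.third hF.mid.swap
      rwa [show t * a * a = t by rw [mul_assoc, hF.sq', mul_one]] at this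
    have hnz : ¬ Same T z := fun h =>
      C.no_triangle hF hR hS hz'' hRS
        ((h.commute_left hRT.symm).symm) hSz
    have hzT' : Same z T' := C.other hF2 hT hz'' hT' hnz hTT'
    exact (hzT'.commute_left hSz.symm).symm
  have hc5 : Commute X32 X31 := edge P X32 X13 X31 hP hX32 hX13 hX31 hc1 hc2 hn2
  have hc6 : Commute X23 X13 :=
    edge Q X23 X31 X13 hQ hX23 hX31 hX13 hc3 hc4 (fun h => hn2 h.symm)
  -- signs
  set x12 := P with hx12
  set x23 := X23 with hx23
  have hr13 : Same X13 (x12 * x23 * x12⁻¹ * x23⁻¹) := by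
    have hFm : Frame (t * a) t := hF2
    have hX23' : Root (t * a * t) (t * a) x23 := by
      rw [show t * a * t = a by rw [hF.comm, mul_assoc, hF.sq, mul_one]]
      exact c23 _ hX23
    exact C.neighbour_commutator hFm hX13 (c12 P hP) hX23' hc2.symm hc6.symm
  obtain ⟨x13, hd13⟩ : ∃ v, v = x12 * x23 * x12⁻¹ * x23⁻¹ := ⟨_, rfl⟩
  rw [← hd13] at hr13
  have r1 : Rel x12 x23 x13 := hd13 ▸ rel_comm _ _
  have hx13 : Root (t * a) t x13 := by
    rcases hr13 with h | h <;> rw [h]
    · exact hX13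
    · exact hX13.inv_root hF2
  have k1 : Commute x12 x13 := (hr13.commute_left hc2.symm).symm
  have k2 : Commute x13 x23 := hr13.commute_left hc6.symm
  obtain ⟨x32, hr32, r3⟩ : ∃ x32, Same X32 x32 ∧ Rel x13 x32 x12 := by
    have hc : Same x12 (x13 * X32 * x13⁻¹ * X32⁻¹) := by
      have hc' := C.neighbour_commutator hF.third (c12 P hP) hx13
        (show Root (t * (t * a)) t X32 by rw [hF.prod_mul_left]; exact hX32) k1 hc1
      exact hc'
    rcases hc with h | h
    · exact ⟨X32, Same.refl _, h ▸ rel_comm _ _⟩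
    · refine ⟨X32⁻¹, Or.inr rfl, ?_⟩
      have h' := rel_inv_right (h ▸ rel_comm x13 X32 : Rel x13 X32 x12⁻¹) hc1.symm.inv_right
      rwa [inv_inv] at h'
  obtain ⟨x21, hr21, r2⟩ : ∃ x21, Same Q x21 ∧ Rel x21 x13 x23 := by
    have hc : Same x23 (Q * x13 * Q⁻¹ * x13⁻¹) :=
      C.neighbour_commutator hF1 hX23 hQ
        (show Root (a * t) a x13 by rw [← hF.comm]; exact c31 _ hx13) hc3.symm k2.symm
    rcases hc with h | h
    · exact ⟨Q, Same.refl _, h ▸ rel_comm _ _⟩
    · refine ⟨Q⁻¹, Or.inr rfl, ?_⟩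
      have h' := rel_inv_left (h ▸ rel_comm Q x13 : Rel Q x13 x23⁻¹) hc3.inv_right
      rwa [inv_inv] at h'
  have hx32 : Root a t x32 := by
    rcases hr32 with h | h <;> rw [h]
    · exact hX32
    · exact hX32.inv_root hF1
  have hx21 : Root t a x21 := by
    rcases hr21 with h | h <;> rw [h]
    · exact hQ
    · exact hQ.inv_root hF
  have k3 : Commute x12 x32 := (hr32.commute_left hc1.symm).symm
  have k4 : Commute x21 x23 := hr21.commute_left hc3
  obtain ⟨x31, hd31⟩ : ∃ v, v = x32 * x21 * x32⁻¹ * x21⁻¹ := ⟨_, rfl⟩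
  have hr31 : Same X31 x31 := by
    rw [hd31]
    refine C.neighbour_commutator hF.mid.swap (c31 _ hX31) (c23 _ hx32) ?_
      (hr32.commute_left hc5).symm ((hr21.commute_left hc4).symm)
    rw [show t * a * a = t by rw [mul_assoc, hF.sq', mul_one]]
    exact c12 _ hx21
  have r4 : Rel x32 x21 x31 := hd31 ▸ rel_comm _ _
  have hx31 : Root (t * a) t x31 := by
    rcases hr31 with h | h <;> rw [h]
    · exact hX31
    · exact hX31.inv_root hF2
  have k5 : Commute x21 x31 := (hr31.commute_left (hr21.commute_left hc4).symm).symm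
  have k6 : Commute x31 x32 := hr31.commute_left (hr32.commute_left hc5).symm
  have n1 : ¬ Same x12 x21 := fun h => hPQ (h.trans hr21.symm)
  have n2 : ¬ Same x31 x13 := fun h => hn2 ((hr13.trans h.symm).trans hr31.symm)
  have n3 : ¬ Same x23 x32 := fun h => hn1 (hr32.trans h.symm)
  have q5 : Same x32 (x31 * x12 * x31⁻¹ * x12⁻¹) :=
    C.neighbour_commutator hF1.third (c23 _ hx32 |> fun h => by rw [← hF.comm]; exact h)
      (show Root (a * t) a x31 by rw [← hF.comm]; exact c31 _ hx31)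
      (show Root (a * (a * t)) a x12 by rw [hF1.prod_mul_left]; exact hP) k6.symm k3.symm
  have q5' : Rel x31 x12 x32 ∨ Rel x31 x12 x32⁻¹ := by
    rcases q5 with h | h
    · exact Or.inl (h ▸ rel_comm _ _)
    · exact Or.inr (h ▸ rel_comm _ _)
  have r5 : Rel x31 x12 x32 :=
    rel_sign (C.pair t a x12 x21 hF hP hx21 n1) r1 r2 r4 q5' k1 k4 k3 k5 k2 k6
      hx13.pow_three hX23.pow_three hx13.ne hx31.pow_three
      (fun h => C.not_same_cross hF1.third (hx32.third hF1)
        (show Root (a * t) a x31 by rw [← hF.comm]; exact c31 _ hx31) (Or.inl h.symm))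
  have q6 : Same x21 (x23 * x31 * x23⁻¹ * x31⁻¹) :=
    C.neighbour_commutator hF hx21 hX23 hx31 k4 k5
  have q6' : Rel x23 x31 x21 ∨ Rel x23 x31 x21⁻¹ := by
    rcases q6 with h | h
    · exact Or.inl (h ▸ rel_comm _ _)
    · exact Or.inr (h ▸ rel_comm _ _)
  have r6 : Rel x23 x31 x21 :=
    rel_sign (C.pair (t * a) t x31 x13 hF2 hx31 hx13 n2) r5 r3 r2 q6' k6 k1.symm k5.symm k2
      k3.symm k4.symm hx32.pow_three hP.pow_three hx32.ne hX23.pow_three
      (fun h => C.not_same_cross hF hx21 hX23 (Or.inl h.symm))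
  -- the system
  let f : Fin 3 → Fin 3 → G := fun i j => ![![1, x12, x13], ![x21, 1, x23], ![x31, x32, 1]] i j
  have hf3 : ∀ i j, i ≠ j → (f i j) ^ 3 = 1 := by
    intro i j hij
    fin_cases i <;> fin_cases j <;>
      first
        | exact absurd rfl hij
        | exact hP.pow_three
        | exact hx13.pow_three
        | exact hx21.pow_three
        | exact hX23.pow_three
        | exact hx31.pow_three
        | exact hx32.pow_three
  have hf0 : ∀ i j k l, i ≠ j → k ≠ l → i ≠ l → j ≠ k → Commute (f i j) (f k l) := by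
    intro i j k l h1 h2 h3 h4
    fin_cases i <;> fin_cases j <;>
      (first | exact absurd rfl h1 |
        (fin_cases k <;> fin_cases l <;>
          first
            | exact absurd rfl h2
            | exact absurd rfl h3
            | exact absurd rfl h4
            | exact Commute.refl _
            | exact k1 | exact k1.symm | exact k2 | exact k2.symm | exact k3 | exact k3.symm
            | exact k4 | exact k4.symm | exact k5 | exact k5.symm | exact k6 | exact k6.symm))
  have hf1 : ∀ i j l, i ≠ j → j ≠ l → i ≠ l → Rel (f i j) (f j l) (f i l) := by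
    intro i j l h1 h2 h3
    fin_cases i <;> fin_cases j <;> fin_cases l <;>
      first
        | exact absurd rfl h1
        | exact absurd rfl h2
        | exact absurd rfl h3
        | exact r1 | exact r2 | exact r3 | exact r4 | exact r5 | exact r6
  have hmod : ∀ i j, i ≠ j → ∀ n, (f i j) ^ n = (f i j) ^ (n % 3) := fun i j h n => by
    conv_lhs => rw [← Nat.div_add_mod n 3, pow_add, pow_mul, hf3 i j h, one_pow, one_mul]
  refine ⟨fun i j s => (f i j) ^ s.val, ⟨?_, ?_, ?_⟩, ?_⟩
  · intro i j h s u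
    rw [← pow_add, hmod i j h, ZMod.val_add]
  · intro i j k l h1 h2 h3 h4 s u
    exact ((hf0 i j k l h1 h2 h3 h4).pow_pow _ _).eq
  · intro i j l h1 h2 h3 s u
    show _ = (f i l) ^ (s * u).val * _ * _
    rw [rel_pow (hf1 i j l h1 h2 h3) (hf0 i j i l h1 h3 h3 h1.symm) (hf0 j l i l h2 h3 h2 h3.symm)
      s.val u.val, hmod i l h3 (s.val * u.val), ← ZMod.val_mul]
  · show x12 ^ (1 : ZMod 3).val ≠ 1
    rw [show (1 : ZMod 3).val = 1 from rfl, pow_one]
    exact hP.ne

end Cfsg.Agent.InvolGLThree
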