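import Cfsg.Agent.GLTwoThree.Concrete

/-!
# Finite tables for `GL (2, 3)`
-/

set_option autoImplicit false

namespace Cfsg.Agent.InvolGLThree

open Cfsg.Agent.GLTwoThree

/-- The upper unipotent. -/
abbrev uP : H := x3

/-- The lower unipotent. -/
def uQ : H := ⟨!![1, 0; 1, 1], !![1, 0; 2, 1], by decide +kernel, by decide +kernel⟩

theorem h_centralizer_s0 : ∀ i, el i * s0 = s0 * el i →
    el i = 1 ∨ el i = -1 ∨ el i = s0 ∨ el i = -1 * s0 := by decide +kernel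

theorem h_roots : ∀ i, el i ≠ 1 → el i * el i * el i = 1 → s0 * el i * s0 * el i = 1 →
    el i = uP ∨ el i = uP * uP ∨ el i = uQ ∨ el i = uQ * uQ := by decide +kernel

theorem h_root_facts : uP ≠ 1 ∧ uP * uP * uP = 1 ∧ s0 * uP * s0 * uP = 1 ∧
    uQ ≠ 1 ∧ uQ * uQ * uQ = 1 ∧ s0 * uQ * s0 * uQ = 1 ∧
    uQ ≠ uP ∧ uQ ≠ uP * uP := by decide +kernel

theorem h_root_centralizer : ∀ k, el k * uP = uP * el k →
    el k = 1 ∨ el k = uP ∨ el k = uP * uP ∨
      el k = -1 ∨ el k = -1 * uP ∨ el k = -1 * (uP * uP) := by decide +kernel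

theorem h_pair : ∀ x ∈ [uP, uP * uP, uQ, uQ * uQ], ∀ y ∈ [uP, uP * uP, uQ, uQ * uQ],
    y ≠ x → y ≠ x * x →
    x * y * (x * y) * (x * y * (x * y)) = 1 ∨
      x * y * (x * y) * (x * y * (x * y)) * (x * y * (x * y)) = 1 := by
  decide +kernel

theorem h_conj : ∀ i, el i ≠ 1 → el i * el i * el i = 1 →
    ∃ k, el k * uP = el i * el k := by decide +kernel

theorem h_normal_cases : ∀ i, el i ≠ 1 →
    (el i * el i = 1 ∨ el i * el i = -1 ∨ el i * el i * (el i * el i) = -1 ∨ el i * el i * el i = 1 ∨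
      el i * el i * el i = -1) ∧
    (el i * el i * el i = 1 → ∃ k, el i * el k * (el i)⁻¹ * (el k)⁻¹ *
      (el i * el k * (el i)⁻¹ * (el k)⁻¹) = -1) := by decide +kernel

theorem h_word : ∀ i, ∃ a b c : Fin 48, (el a = 1 ∨ cls (el a) = 2) ∧ (el b = 1 ∨ cls (el b) = 2) ∧
    (el c = 1 ∨ cls (el c) = 2) ∧ el i = el a * el b * el c := by decide +kernel

end Cfsg.Agent.InvolGLThree
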