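import Cfsg.Agent.GLTwoThree.Setup
import Cfsg.Agent.InvolGLThree.Tables
import Cfsg.Agent.S0111
import Cfsg.Agent.S2009
import Cfsg.Prelude.Def_Transfer

/-!
# An involution with centraliser `GL (2, 3)`: conjugacy, simplicity and transported local data
-/

set_option autoImplicit false
set_option linter.unusedSectionVars false
set_option linter.style.haveILetI false

namespace Cfsg.Agent.InvolGLThree

open Cfsg.Agent.GLTwoThree
open Subgroup

universe u

variable {G : Type u} [Group G] [Finite G] {t : G}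
variable (e : centralizer ({t} : Set G) ≃* H)

/-- The transported diagonal involution. -/
noncomputable def aInv : G := jHom e s0

theorem commute_jHom (x : H) : Commute t (jHom e x) :=
  (mem_centralizer_singleton_iff.1 (jHom_mem e x)).symm

theorem aInv_sq : aInv e * aInv e = 1 := by rw [aInv, ← map_mul, s0_facts.1, map_one]

theorem aInv_ne_one : aInv e ≠ 1 := fun h => s0_facts.2.1 (jHom_injective e (by rw [map_one]; exact h))

variable (ht : orderOf t = 2)

include ht in
theorem aInv_ne_t : aInv e ≠ t := fun h => by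
  have h' := jHom_injective e ((h.trans (jHom_neg_one e ht).symm : jHom e s0 = jHom e (-1)))
  have : ∀ (_ : s0 = (-1 : H)), False := by decide +kernel
  exact this h'

include ht in
theorem exists_el_conj (hO : Cfsg.pResidual 2 G = ⊤) {i : Fin 48} (hsq : el i * el i = 1)
    (hne : el i ≠ 1) : IsConj t (jHom e (el i)) := by
  rcases involution_cases i hsq hne with h | h
  · rw [h, jHom_neg_one e ht]
  have hconj : IsConj (jHom e s0) (jHom e (el i)) := by
    have := isConj_rep (el i)
    rw [h, show rep 2 = s0 from rfl] at this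
    exact (jHom e).map_isConj this
  refine IsConj.trans ?_ hconj
  haveI : Fact (Nat.Prime 2) := ⟨Nat.prime_two⟩
  obtain ⟨P, hP⟩ := (IsPGroup.of_card (show Nat.card (sylowG e) = 2 ^ 4 by
    rw [card_sylowG]; rfl)).exists_le_sylow (p := 2)
  have hPS : (P : Subgroup G) = sylowG e := by
    refine (Subgroup.eq_of_le_of_card_ge hP ?_).symm
    obtain ⟨k, hk⟩ := IsPGroup.iff_card.1 P.2
    rw [card_sylowG, hk]
    by_contra hlt
    have hk5 : 5 ≤ k := by
      by_contra h5
      have h16 : 2 ^ k ≤ 2 ^ 4 := Nat.pow_le_pow_right (by norm_num) (by omega)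
      omega
    have h32 : 2 ^ 5 ∣ 48 * (centralizer ({t} : Set G)).index :=
      card_eq e ▸ (pow_dvd_pow 2 hk5).trans (hk ▸ Subgroup.card_subgroup_dvd_card _)
    obtain ⟨m, hm⟩ := index_odd e ht
    omega
  set Q0 : Subgroup H := sylow ⊓ detSign.ker with hQ0
  have hdet : ∀ g : H, g ∈ detSign.ker ↔ detInt g = 1 := fun g => by
    rw [MonoidHom.mem_ker, ← Units.val_eq_one, detSign_eq, Int.cast_eq_one]
  haveI : DecidablePred (· ∈ Q0) := fun g =>
    decidable_of_iff (g ∈ sylow ∧ detInt g = 1) ((and_congr_right' (hdet g).symm).trans Subgroup.mem_inf.symm)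
  have hQcard : Nat.card Q0 = 8 := by
    rw [natCard_sub Q0, ← card_sylow_detOne]
    congr 1
    refine Finset.filter_congr fun k _ => ?_
    rw [hQ0, Subgroup.mem_inf, hdet]
  set Q : Subgroup G := Q0.map (jHom e) with hQ
  have hQP : Q ≤ (P : Subgroup G) := hPS ▸ Subgroup.map_mono inf_le_left
  have hQi : Q.relIndex (P : Subgroup G) = 2 := by
    have h1 := Subgroup.card_mul_index (Q.subgroupOf (P : Subgroup G))
    rw [Nat.card_congr (Subgroup.subgroupOfEquivOfLe hQP).toEquiv, hQ,
      Nat.card_congr (Q0.equivMapOfInjective _ (jHom_injective e)).toEquiv.symm, hQcard, hPS,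
      card_sylowG] at h1
    show (Q.subgroupOf (P : Subgroup G)).index = 2
    rw [hQ, hPS]
    omega
  have hs : orderOf (jHom e s0) = 2 := by
    rw [orderOf_injective _ (jHom_injective e)]
    exact orderOf_eq_prime (by rw [pow_two]; exact s0_facts.1) s0_facts.2.1
  have hsQ : jHom e s0 ∉ Q := by
    rintro ⟨g, hg, hge⟩
    rw [jHom_injective e hge] at hg
    have := (hdet s0).1 hg.2
    rw [s0_facts.2.2.2] at this
    omega
  rcases Cfsg.Agent.S0111.result P Q hQP hQi (jHom e s0) hs
      (hPS ▸ ⟨s0, s0_facts.2.2.1, rfl⟩) hsQ with ⟨M, hM, hMi, -⟩ | ⟨g, hg⟩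
  · exfalso
    haveI := hM
    have hle : Cfsg.pResidual 2 G ≤ M := by
      refine (Subgroup.closure_le M).2 fun g hg => ?_
      have h2 : g ^ 2 ∈ M := Subgroup.sq_mem_of_index_two hMi g
      obtain ⟨k, hk⟩ : ∃ k, orderOf g = 2 * k + 1 :=
        (Nat.coprime_two_right.1 hg).imp fun k hk => hk
      have : g = (g ^ 2) ^ (k + 1) := by
        rw [← pow_mul, show 2 * (k + 1) = orderOf g + 1 by omega, pow_succ, pow_orderOf_eq_one, one_mul]
      rw [SetLike.mem_coe, this]
      exact pow_mem h2 _
    rw [hO, top_le_iff] at hle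
    rw [hle, Subgroup.index_top] at hMi
    omega
  · obtain ⟨x, hx, hxe⟩ := hg
    obtain ⟨k, rfl⟩ := el_surjective x
    have ho : orderOf (el k) = 2 := by
      rw [← orderOf_injective _ (jHom_injective e), hxe, ← MulAut.conj_apply, MulEquiv.orderOf_eq,
        hs]
    have hk : el k = -1 := det_one_involution k ((hdet _).1 hx.2)
      (by rw [← pow_two]; exact orderOf_dvd_iff_pow_eq_one.1 (dvd_of_eq ho))
      (fun h1 => by rw [h1, orderOf_one] at ho; omega)
    rw [hk, jHom_neg_one e ht] at hxe
    exact isConj_iff.2 ⟨g⁻¹, (congrArg (fun z => g⁻¹ * z * g⁻¹⁻¹) hxe).trans (by group)⟩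

include e ht in
theorem isConj_of_involution' (hO : Cfsg.pResidual 2 G = ⊤) {d : G} (hd : orderOf d = 2) :
    IsConj t d := by
  haveI : Fact (Nat.Prime 2) := ⟨Nat.prime_two⟩
  obtain ⟨P, hP⟩ := (IsPGroup.of_card (show Nat.card (sylowG e) = 2 ^ 4 by
    rw [card_sylowG]; rfl)).exists_le_sylow (p := 2)
  have hzd : IsPGroup 2 (zpowers d) := IsPGroup.of_card (n := 1) (by rw [Nat.card_zpowers, hd, pow_one])
  obtain ⟨Q, hQ⟩ := hzd.exists_le_sylow
  obtain ⟨g, hg⟩ := MulAction.exists_smul_eq G Q P
  have hd' : g * d * g⁻¹ ∈ (P : Subgroup G) := by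
    rw [← hg]
    exact Subgroup.smul_mem_pointwise_smul d (MulAut.conj g) _ (hQ (mem_zpowers d))
  have hPle : (P : Subgroup G) ≤ centralizer ({t} : Set G) := by
    have hcard : Nat.card (P : Subgroup G) ≤ Nat.card (sylowG e) := by
      obtain ⟨k, hk⟩ := IsPGroup.iff_card.1 P.2
      rw [card_sylowG, hk]
      by_contra hlt
      have hk5 : 5 ≤ k := by
        by_contra h5
        have h16 : 2 ^ k ≤ 2 ^ 4 := Nat.pow_le_pow_right (by norm_num) (by omega)
        omega
      have h32 : 2 ^ 5 ∣ 48 * (centralizer ({t} : Set G)).index :=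
        card_eq e ▸ (pow_dvd_pow 2 hk5).trans (hk ▸ Subgroup.card_subgroup_dvd_card _)
      obtain ⟨m, hm⟩ := index_odd e ht
      omega
    rw [← Subgroup.eq_of_le_of_card_ge hP hcard]
    rintro _ ⟨x, -, rfl⟩
    exact jHom_mem e x
  obtain ⟨i, hi⟩ := exists_el_of_mem e (hPle hd')
  have ho : orderOf (el i) = 2 := by
    rw [← orderOf_injective _ (jHom_injective e), hi, ← MulAut.conj_apply, MulEquiv.orderOf_eq, hd]
  have h := exists_el_conj e ht hO (i := i)
    (by rw [← pow_two]; exact orderOf_dvd_iff_pow_eq_one.1 (dvd_of_eq ho))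
    (fun h1 => by rw [h1, orderOf_one] at ho; omega)
  exact h.trans (isConj_iff.2 ⟨g⁻¹, by rw [hi]; group⟩)

include e ht in
theorem isSimpleGroup (hO : Cfsg.pResidual 2 G = ⊤) : IsSimpleGroup G := by
  have hall : ∀ d : G, orderOf d = 2 → IsConj t d := fun d hd => isConj_of_involution' e ht hO hd
  have hN : ∀ N : Subgroup G, N.Normal → N ≠ ⊤ → N ⊓ centralizer ({t} : Set G) = ⊥ := by
    intro N hn hne
    by_contra hbot
    apply hne
    rw [← ne_eq, Subgroup.ne_bot_iff_exists_ne_one] at hbot
    obtain ⟨⟨x, hxN, hxC⟩, hx1⟩ := hbot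
    obtain ⟨i, rfl⟩ := exists_el_of_mem e hxC
    have hne1 : el i ≠ 1 := fun h => hx1 (Subtype.ext (by simp [h]))
    have hNz : jHom e (-1) ∈ N := by
      obtain ⟨hcase, hthree⟩ := h_normal_cases i hne1
      rcases hcase with h | h | h | h | h
      · rcases involution_cases i h hne1 with h' | h'
        · rwa [← h']
        · have ho : orderOf (jHom e (el i)) = 2 := by
            rw [orderOf_injective _ (jHom_injective e)]
            exact orderOf_eq_prime (by rw [pow_two]; exact h) hne1
          obtain ⟨g, hg⟩ := isConj_iff.1 (hall _ ho).symm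
          rw [jHom_neg_one e ht, ← hg]
          exact hn.conj_mem _ hxN g
      · rw [← h, map_mul]; exact mul_mem hxN hxN
      · rw [← h, map_mul, map_mul]; exact mul_mem (mul_mem hxN hxN) (mul_mem hxN hxN)
      · obtain ⟨k, hk⟩ := hthree h
        have hc : jHom e (el i * el k * (el i)⁻¹ * (el k)⁻¹) ∈ N := by
          rw [map_mul, map_mul, map_mul, map_inv, map_inv,
            show jHom e (el i) * jHom e (el k) * (jHom e (el i))⁻¹ * (jHom e (el k))⁻¹ =
              jHom e (el i) * (jHom e (el k) * (jHom e (el i))⁻¹ * (jHom e (el k))⁻¹) by group]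
          exact mul_mem hxN (hn.conj_mem _ (inv_mem hxN) _)
        rw [← hk, map_mul]
        exact mul_mem hc hc
      · rw [← h, map_mul, map_mul]; exact mul_mem (mul_mem hxN hxN) hxN
    rw [jHom_neg_one e ht] at hNz
    have hinv : ∀ d : G, orderOf d = 2 → d ∈ N := by
      intro d hd
      obtain ⟨g, hg⟩ := isConj_iff.1 (hall d hd)
      rw [← hg]
      exact hn.conj_mem _ hNz g
    have hC : ∀ i, jHom e (el i) ∈ N := by
      have hgen : ∀ a : Fin 48, (el a = 1 ∨ cls (el a) = 2) → jHom e (el a) ∈ N := by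
        intro a ha
        rcases ha with ha | ha
        · rw [ha, map_one]; exact one_mem N
        · obtain ⟨c, hc⟩ := isConj_iff.1 (isConj_rep (el a))
          rw [ha, show rep 2 = s0 from rfl] at hc
          rw [← hc, map_mul, map_mul, map_inv]
          refine hn.conj_mem _ (hinv _ ?_) _
          rw [orderOf_injective _ (jHom_injective e)]
          exact orderOf_eq_prime (by rw [pow_two]; exact s0_facts.1) s0_facts.2.1
      intro i
      obtain ⟨a, b, c, ha, hb, hc, habc⟩ := h_word i
      rw [habc, map_mul, map_mul]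
      exact mul_mem (mul_mem (hgen a ha) (hgen b hb)) (hgen c hc)
    haveI : Fact (Nat.Prime 2) := ⟨Nat.prime_two⟩
    haveI := hn
    obtain ⟨P, hP⟩ := (IsPGroup.of_card (show Nat.card (sylowG e) = 2 ^ 4 by
      rw [card_sylowG]; rfl)).exists_le_sylow (p := 2)
    have hPS : (P : Subgroup G) = sylowG e := by
      refine (Subgroup.eq_of_le_of_card_ge hP ?_).symm
      obtain ⟨k, hk⟩ := IsPGroup.iff_card.1 P.2
      rw [card_sylowG, hk]
      by_contra hlt
      have hk5 : 5 ≤ k := by
        by_contra h5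
        have h16 : 2 ^ k ≤ 2 ^ 4 := Nat.pow_le_pow_right (by norm_num) (by omega)
        omega
      have h32 : 2 ^ 5 ∣ 48 * (centralizer ({t} : Set G)).index :=
        card_eq e ▸ (pow_dvd_pow 2 hk5).trans (hk ▸ Subgroup.card_subgroup_dvd_card _)
      obtain ⟨m, hm⟩ := index_odd e ht
      omega
    have hPN : (P : Subgroup G) ≤ N := by
      rw [hPS]
      rintro _ ⟨x, -, rfl⟩
      obtain ⟨k, rfl⟩ := el_surjective x
      exact hC k
    have hfr := Sylow.normalizer_sup_eq_top (P.subtype hPN)
    rw [Sylow.coe_subtype, Subgroup.subgroupOf_map_subtype, inf_of_le_left hPN] at hfr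
    rw [eq_top_iff, ← hfr]
    refine sup_le (fun g hg => ?_) le_rfl
    have hfix : ∀ y, y ∈ (P : Subgroup G) → g * y * g⁻¹ ∈ (P : Subgroup G) :=
      fun y hy => (Subgroup.mem_normalizer_iff.1 hg y).1 hy
    have htP : t ∈ (P : Subgroup G) := hPS ▸ ⟨-1, neg_one_facts.2.2.1, jHom_neg_one e ht⟩
    have hz : g * t * g⁻¹ ∈ (P : Subgroup G) := hfix t htP
    rw [hPS] at hz
    obtain ⟨z, hzs, hzt⟩ := hz
    obtain ⟨k, rfl⟩ := el_surjective z
    have ho : orderOf (el k) = 2 := by
      rw [← orderOf_injective _ (jHom_injective e), hzt, ← MulAut.conj_apply, MulEquiv.orderOf_eq, ht]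
    have hk : el k = -1 := by
      refine eq_neg_one_of_centralizes_sylow k (fun l hl => jHom_injective e ?_)
        (by rw [← pow_two]; exact orderOf_dvd_iff_pow_eq_one.1 (dvd_of_eq ho))
        (fun h1 => by rw [h1, orderOf_one] at ho; omega)
      rw [map_mul, map_mul, hzt]
      have hlP : jHom e (el l) ∈ (P : Subgroup G) := hPS ▸ ⟨_, hl, rfl⟩
      have hback : g⁻¹ * jHom e (el l) * g ∈ (P : Subgroup G) :=
        (Subgroup.mem_normalizer_iff''.1 hg _).1 hlP
      rw [hPS] at hback
      obtain ⟨w, -, hw⟩ := hback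
      have hcw := (commute_jHom e w).eq
      rw [hw] at hcw
      calc jHom e (el l) * (g * t * g⁻¹) = g * (g⁻¹ * jHom e (el l) * g * t) * g⁻¹ := by group
        _ = g * (t * (g⁻¹ * jHom e (el l) * g)) * g⁻¹ := by rw [hcw]
        _ = g * t * g⁻¹ * jHom e (el l) := by group
    rw [hk, jHom_neg_one e ht] at hzt
    have hgC : g ∈ centralizer ({t} : Set G) := by
      rw [Subgroup.mem_centralizer_singleton_iff]
      have := congrArg (fun z => z * g) hzt
      simpa [mul_assoc] using this.symm
    obtain ⟨l, rfl⟩ := exists_el_of_mem e hgC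
    exact hC l
  let a := aInv e
  have hat : a * t = t * a := (commute_jHom e s0).eq.symm
  have htt := t_mul_self ht
  have haa : a * a = 1 := aInv_sq e
  let E : Subgroup G :=
    { carrier := {1, t, a, t * a}
      one_mem' := Or.inl rfl
      mul_mem' := by
        intro x y hx hy
        have f1 : t * (t * a) = a := by rw [← mul_assoc, htt, one_mul]
        have f2 : t * a * t = a := by rw [mul_assoc, hat, f1]
        have f3 : t * a * a = t := by rw [mul_assoc, haa, mul_one]
        have f4 : a * (t * a) = t := by rw [← mul_assoc, hat, f3]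
        have f5 : t * a * (t * a) = 1 := by rw [← mul_assoc, f2, haa]
        rcases hx with h | h | h | h <;> rcases hy with h' | h' | h' | h' <;> rw [h, h'] <;>
          simp [Set.mem_insert_iff, one_mul, mul_one, htt, haa, hat, f1, f2, f3, f4, f5]
      inv_mem' := by
        have hti : t⁻¹ = t := inv_eq_of_mul_eq_one_right htt
        have hai : a⁻¹ = a := inv_eq_of_mul_eq_one_right haa
        intro x hx
        rcases hx with h | h | h | h <;> rw [h] <;> simp [Set.mem_insert_iff, hti, hai, hat] }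
  have hta : t * a ≠ 1 := fun h => aInv_ne_t e ht (by
    have := congrArg (t * ·) h
    simpa [← mul_assoc, htt] using this)
  have hne1 : ∀ y ∈ E, y ≠ 1 → orderOf y = 2 := by
    intro y hy h1
    refine orderOf_eq_prime ?_ h1
    rcases hy with h | h | h | h <;> rw [h]
    · exact one_pow _
    · rw [pow_two, htt]
    · rw [pow_two, haa]
    · rw [pow_two, mul_assoc, ← mul_assoc a, hat, mul_assoc t a a, haa, mul_one, htt]
  have hcardE : Nat.card E = 4 := by
    classical
    have h1 : ∀ x : G, x ∈ E ↔ x ∈ ({1, t, a, t * a} : Finset G) := fun x => by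
      show x ∈ ({1, t, a, t * a} : Set G) ↔ _
      simp
    rw [Nat.card_congr (Equiv.subtypeEquivRight h1), Nat.card_eq_fintype_card, Fintype.card_coe]
    have n1 : (1 : G) ≠ t := (t_ne_one ht).symm
    have n2 : (1 : G) ≠ a := (aInv_ne_one e).symm
    have n3 : t ≠ a := (aInv_ne_t e ht).symm
    have n4 : t ≠ t * a := fun h => aInv_ne_one e (mul_eq_left.1 h.symm)
    have n5 : a ≠ t * a := fun h => t_ne_one ht (mul_eq_right.1 h.symm)
    rw [Finset.card_insert_of_notMem, Finset.card_insert_of_notMem, Finset.card_pair n5]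
    · simp [n3, n4]
    · simp [n1, n2, hta.symm]
  have hKF : IsKleinFour E := by
    refine ⟨hcardE, ?_⟩
    haveI : Nontrivial E := Finite.one_lt_card_iff_nontrivial.1 (by omega)
    refine (Monoid.exponent_eq_prime_iff Nat.prime_two).2 fun g hg => ?_
    rw [← Subgroup.orderOf_coe]
    exact hne1 _ g.2 (fun h => hg (Subtype.ext h))
  exact Cfsg.Agent.S2009.result t ht hN E hKF (Or.inr (Or.inl rfl))
    (fun y hy h1 => hall y (hne1 y hy h1))

end Cfsg.Agent.InvolGLThree
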