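import Cfsg.Agent.InvolGLThree.Nine

/-!
# Neighbours of a root element; no triangles; commutators of neighbours
-/

set_option autoImplicit false
set_option linter.unusedSectionVars false
set_option linter.style.haveILetI false

namespace Cfsg.Agent.InvolGLThree

open Subgroup

universe u

variable {G : Type u} [Group G] [Finite G] (C : Ctx G)

namespace Ctx

/-- Root elements of the same frame lie in two classes. -/
theorem other {d d' a b c : G} (C : Ctx G) (hF : Frame d d') (ha : Root d d' a) (hb : Root d d' b)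
    (hc : Root d d' c) (hab : ¬ Same a b) (hac : ¬ Same a c) : Same b c := by
  obtain ⟨P, Q, -, -, -, hall⟩ := C.two d d' hF
  rcases hall a ha with h1 | h1 <;> rcases hall b hb with h2 | h2
  · exact absurd (h1.symm.trans h2) hab
  · rcases hall c hc with h3 | h3
    · exact absurd (h1.symm.trans h3) hac
    · exact h2.symm.trans h3
  · rcases hall c hc with h3 | h3
    · exact h2.symm.trans h3
    · exact absurd (h1.symm.trans h3) hac
  · exact absurd (h1.symm.trans h2) hab

include C in
theorem card_fix_eq {d d' x : G} (hF : Frame d d') (hx : Root d d' x) {K : Subgroup G}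
    (hK : IsCore x K) :
    Nat.card (fixPart K d') = 3 ∧ Nat.card (fixPart K (d * d')) = 3 := by
  have h := C.card_core_le hF hx hK
  rw [C.card_core_eq hF hx hK] at h
  rcases (Nat.dvd_prime Nat.prime_three).1 (C.card_fixPart_dvd hF hK) with a | a <;>
    rcases (Nat.dvd_prime Nat.prime_three).1 (C.card_fixPart_dvd hF.third hK) with b | b <;>
    rw [a, b] at h <;> omega

include C in
theorem exists_neighbour {d d' x : G} (hF : Frame d d') (hx : Root d d' x) :
    ∃ y, Root d' d y ∧ Commute x y := by
  obtain ⟨K, hK⟩ := C.exists_isCore hF hx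
  haveI : Nontrivial (fixPart K d') :=
    Finite.one_lt_card_iff_nontrivial.1 (by rw [(C.card_fix_eq hF hx hK).1]; norm_num)
  obtain ⟨y, hy⟩ := exists_ne (1 : fixPart K d')
  exact ⟨y, C.root_of_fixPart hF hx hK y.2 (fun h => hy (Subtype.ext h))⟩

theorem mem_fixPart {d d' x y : G} {K : Subgroup G} (hK : IsCore x K) (hy : Root d' d y)
    (hxy : Commute x y) : y ∈ fixPart K d' :=
  ⟨mem_core_of_three hK hxy.symm.eq hy.cube, mem_centralizer_singleton_iff.2 hy.comm.symm⟩

include C in
theorem fixPart_cases {d d' x y : G} (hF : Frame d d') (hx : Root d d' x) {K : Subgroup G}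
    (hK : IsCore x K) (hy : Root d' d y) (hxy : Commute x y) {z : G} (hz : z ∈ fixPart K d') :
    z = 1 ∨ Same y z := by
  have hgen : fixPart K d' = zpowers y := by
    refine (eq_of_le_of_card_ge (zpowers_le.2 (mem_fixPart hK hy hxy)) ?_).symm
    rw [(C.card_fix_eq hF hx hK).1, Nat.card_zpowers, orderOf_eq_prime hy.pow_three hy.ne]
  rw [hgen, mem_zpowers_iff] at hz
  obtain ⟨n, rfl⟩ := hz
  rw [← zpow_mod_orderOf, orderOf_eq_prime hy.pow_three hy.ne]
  rcases (show n % (3 : ℕ) = 0 ∨ n % (3 : ℕ) = 1 ∨ n % (3 : ℕ) = 2 by omega) with h | h | h <;>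
    rw [h]
  · exact Or.inl (zpow_zero y)
  · exact Or.inr (Or.inl (zpow_one y))
  · exact Or.inr (Or.inr (by rw [zpow_two, hy.inv_eq]))

include C in
theorem neighbour_unique {d d' x y y' : G} (hF : Frame d d') (hx : Root d d' x) (hy : Root d' d y)
    (hxy : Commute x y) (hy' : Root d' d y') (hxy' : Commute x y') : Same y y' := by
  obtain ⟨K, hK⟩ := C.exists_isCore hF hx
  exact (C.fixPart_cases hF hx hK hy hxy (mem_fixPart hK hy' hxy')).resolve_left hy'.ne

include C in
theorem not_same_cross {d d' x y : G} (hF : Frame d d') (hx : Root d d' x) (hy : Root d' d y) :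
    ¬ Same x y := fun h => by
  have hc : Commute d' x := (h.symm.commute_left hy.commute.symm).symm
  exact hx.ne (eq_one_of_fixed_of_inverted hx.cube
    (by rw [hc.eq, mul_assoc, hF.sq', mul_one]) hx.inv)

include C in
theorem no_triangle {d d' x y z : G} (hF : Frame d d') (hx : Root d d' x) (hy : Root d' d y)
    (hz : Root (d * d') d z) (hxy : Commute x y) (hxz : Commute x z) (hyz : Commute y z) : False := by
  haveI : Fact (Nat.Prime 3) := ⟨Nat.prime_three⟩
  obtain ⟨r, hr1, hr2⟩ := C.trans d d' d' (d * d') hF hF.mid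
  obtain ⟨φ, hφ⟩ : ∃ φ : G ≃* G, ∀ a, φ a = r * a * r⁻¹ := ⟨MulAut.conj r, fun a => rfl⟩
  have h1 : φ d = d' := by rw [hφ, hr1]
  have h2 : φ d' = d * d' := by rw [hφ, hr2]
  have h3 : φ (d * d') = d := by rw [map_mul, h1, h2, hF.prod_mul_right]
  have hφc : ∀ {a b : G}, Commute a b → Commute (φ a) (φ b) := fun h => by
    show φ _ * φ _ = φ _ * φ _
    rw [← map_mul, ← map_mul, h.eq]
  have hφs : ∀ {a b : G}, Same (φ a) (φ b) → Same a b := fun h => by
    rcases h with h | h
    · exact Or.inl (φ.injective h)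
    · exact Or.inr (φ.injective (by rw [map_inv, h]))
  have hφs' : ∀ {a b : G}, Same a b → Same (φ a) (φ b) := fun h => by
    rcases h with rfl | rfl
    · exact Same.refl _
    · exact Or.inr (map_inv φ _)
  -- `r` has order dividing three
  have hr3 : r * r * r = 1 := by
    have e1 : r * r * r * d * (r * r * r)⁻¹ = φ (φ (φ d)) := by rw [hφ, hφ, hφ]; group
    have e2 : r * r * r * d' * (r * r * r)⁻¹ = φ (φ (φ d')) := by rw [hφ, hφ, hφ]; group
    rw [h1, h2, h3, mul_inv_eq_iff_eq_mul] at e1
    rw [h2, h3, h1, mul_inv_eq_iff_eq_mul] at e2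
    have hfix : φ (r * r * r) = r * r * r := by rw [hφ]; group
    rcases C.four d d' _ hF e1 e2 with h | h | h | h
    · exact h
    · rw [h, h1] at hfix; exact absurd hfix.symm hF.dist
    · rw [h, h2, mul_eq_right] at hfix; exact absurd hfix hF.ne
    · rw [h, h3, eq_comm, mul_eq_left] at hfix; exact absurd hfix hF.ne'
  -- images of the roots
  have hFm := hF.mid
  have hx' : Root d' d (φ x) := by
    have := hx.map_equiv φ
    rw [h1, h2] at this
    have := this.third hFm
    rwa [hF.prod_mul_right] at this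
  have hFt : Frame (d * d') d' := hF.mid.swap
  have hy' : Root (d * d') d (φ y) := by
    have := hy.map_equiv φ
    rw [h1, h2] at this
    have := this.third hFt
    rwa [show d * d' * d' = d by rw [mul_assoc, hF.sq', mul_one]] at this
  have hz' : Root d d' (φ z) := by
    have := hz.map_equiv φ
    rwa [h1, h3] at this
  have hxz' : Root d' (d * d') y := by
    have := hy.third hF.swap
    rwa [← hF.comm] at this
  -- uniqueness, in the forms needed
  have uxy : ∀ w, Root d' d w → Commute x w → Same y w := fun w hw hc =>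
    C.neighbour_unique hF hx hy hxy hw hc
  have uyz : ∀ w, Root (d * d') d w → Commute y w → Same z w := fun w hw hc => by
    have cv : ∀ v, Root (d * d') d v → Root (d * d') d' v := fun v hv => by
      have := hv.third hF.third.swap
      rwa [show d * d' * d = d' by rw [hF.comm, mul_assoc, hF.sq, mul_one]] at this
    exact C.neighbour_unique hFm hxz' (cv z hz) hyz (cv w hw) hc
  have uzy : ∀ w, Root d' d w → Commute z w → Same y w := fun w hw hc => by
    have hz2 : Root (d * d') d' z := by
      have := hz.third hF.third.swap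
      rwa [show d * d' * d = d' by rw [hF.comm, mul_assoc, hF.sq, mul_one]] at this
    have cv : ∀ v, Root d' d v → Root d' (d * d') v := fun v hv => by
      have := hv.third hF.swap
      rwa [← hF.comm] at this
    exact C.neighbour_unique hFt hz2 (cv y hy) hyz.symm (cv w hw) hc
  have uzx : ∀ w, Root d d' w → Commute z w → Same x w := fun w hw hc =>
    C.neighbour_unique hF.third.swap hz (hx.third hF) hxz.symm (hw.third hF) hc
  by_cases hA : Same y (φ x)
  · -- the triangle is permuted
    have hyφ : Same z (φ y) := uyz _ hy' (hA.symm.commute_left (hφc hxy))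
    have hzφ : Same x (φ z) := uzx _ hz' (hyφ.symm.commute_left (hφc hyz))
    obtain ⟨K, hK⟩ := C.exists_isCore hF hx
    have hxK := self_mem_core hx hK
    have hyK := mem_core_of_three hK hxy.symm.eq hy.cube
    have hzK := mem_core_of_three hK hxz.symm.eq hz.cube
    have hmemS : ∀ {a b : G}, Same a b → a ∈ K → b ∈ K := fun h ha => by
      rcases h with rfl | rfl
      · exact ha
      · exact inv_mem ha
    have himg : ∀ k, k ∈ K → φ k ∈ K := by
      intro k hk
      obtain ⟨f, c, g, hf, hg, hc, rfl, hfd, hgd⟩ := C.decomp hF hx hK hk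
      rw [map_mul, map_mul]
      refine mul_mem (mul_mem ?_ ?_) ?_
      · rcases C.fixPart_cases hF hx hK hy hxy
          (show f ∈ fixPart K d' from ⟨hf, mem_centralizer_singleton_iff.2 hfd.eq⟩) with h | h
        · rw [h, map_one]; exact one_mem K
        · exact hmemS ((hφs' h)) (hmemS hyφ hzK)
      · obtain ⟨n, rfl⟩ := mem_zpowers_iff.1 hc
        rw [map_zpow]
        exact zpow_mem (hmemS hA hyK) n
      · rcases C.fixPart_cases hF.third (hx.third hF) hK hz hxz
          (show g ∈ fixPart K (d * d') from ⟨hg, mem_centralizer_singleton_iff.2 hgd.eq⟩) with h | h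
        · rw [h, map_one]; exact one_mem K
        · exact hmemS (hφs' h) (hmemS hzφ hxK)
    have hrN : r ∈ normalizer (K : Set G) := mem_normalizer_fintype fun n hn => by
      rw [← hφ]; exact himg n hn
    have hK3 : IsPGroup 3 K :=
      IsPGroup.of_card (n := 3) (by rw [C.card_core_eq hF hx hK]; rfl)
    have hr3' : IsPGroup 3 (zpowers r) := by
      have hd : orderOf r ∣ 3 := orderOf_dvd_of_pow_eq_one (by rw [pow_succ, pow_two, hr3])
      rcases (Nat.dvd_prime Nat.prime_three).1 hd with h | h
      · exact IsPGroup.of_card (n := 0) (by rw [Nat.card_zpowers, h]; rfl)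
      · exact IsPGroup.of_card (n := 1) (by rw [Nat.card_zpowers, h, pow_one])
    have hJ : IsPGroup 3 (zpowers r ⊔ K : Subgroup G) :=
      hr3'.to_sup_of_normal_right' hK3 (zpowers_le.2 hrN)
    obtain ⟨P, hP⟩ := hJ.exists_le_sylow
    have hPc : Nat.card (P : Subgroup G) = 27 := by
      rw [P.card_eq_multiplicity, C.card, Nat.factorization_def _ Nat.prime_three,
        show (5616 : ℕ) = 3 ^ 3 * 208 by norm_num,
        padicValNat.mul (by norm_num) (by norm_num), padicValNat.prime_pow,
        padicValNat.eq_zero_of_not_dvd (by norm_num)]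
      norm_num
    have hKP : K = (P : Subgroup G) := eq_of_le_of_card_ge (le_sup_right.trans hP)
      (by rw [hPc, C.card_core_eq hF hx hK])
    have hrK : r ∈ K := hKP ▸ hP (mem_sup_left (mem_zpowers r))
    have hφx : φ x = x := by rw [hφ, ((hK.mem r).1 hrK).1, mul_inv_cancel_right]
    rw [hφx] at hA
    exact C.not_same_cross hF hx hy hA.symm
  · have hB : ¬ Same z (φ y) := fun h =>
      hA (uzy _ hx' (h.symm.commute_left (hφc hxy.symm)))
    have hC : ¬ Same x (φ z) := fun h =>
      hA (uxy _ hx' (h.symm.commute_left (hφc hxz.symm)))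
    have hxx' : Root (d * d') d (φ (φ x)) := by
      have h0 : Root (d * d') d' (φ (φ x)) := by
        have := hx'.map_equiv φ
        rwa [h1, h2] at this
      have := h0.third hFt
      rwa [show d * d' * d' = d by rw [mul_assoc, hF.sq', mul_one]] at this
    have hne : ¬ Same (φ y) (φ (φ x)) := fun h => hA (hφs h)
    have h4 : Same z (φ (φ x)) :=
      C.other hF.third.swap hy' hz hxx' (fun h => hB h.symm) hne
    have h5 := hφs' h4
    have e3 : φ (φ (φ x)) = x := by
      rw [hφ, hφ, hφ]
      calc r * (r * (r * x * r⁻¹) * r⁻¹) * r⁻¹ = (r * r * r) * x * (r * r * r)⁻¹ := by group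
        _ = x := by rw [hr3]; group
    rw [e3] at h5
    exact hC h5.symm

include C in
theorem neighbour_commutator {d d' x v w : G} (hF : Frame d d') (hx : Root d d' x)
    (hv : Root d' d v) (hw : Root (d * d') d w) (hxv : Commute x v) (hxw : Commute x w) :
    Same x (v * w * v⁻¹ * w⁻¹) := by
  haveI : Fact (Nat.Prime 3) := ⟨Nat.prime_three⟩
  obtain ⟨K, hK⟩ := C.exists_isCore hF hx
  have hxK := self_mem_core hx hK
  have hvK := mem_core_of_three hK hxv.symm.eq hv.cube
  have hwK := mem_core_of_three hK hxw.symm.eq hw.cube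
  set X : Subgroup K := (zpowers x).subgroupOf K with hX
  haveI : X.Normal := ⟨fun n hn g => by
    rw [hX, mem_subgroupOf] at hn ⊢
    obtain ⟨i, hi⟩ := mem_zpowers_iff.1 hn
    have hc : Commute (g : G) n := by
      rw [← hi]
      exact Commute.zpow_right (show Commute (g : G) x from ((hK.mem _).1 g.2).1) i
    rw [Subgroup.coe_mul, Subgroup.coe_mul, Subgroup.coe_inv, hc.eq, mul_inv_cancel_right]
    exact hn⟩
  have hXc : Nat.card X = 3 := by
    rw [hX, Nat.card_congr (subgroupOfEquivOfLe (zpowers_le.2 hxK)).toEquiv, Nat.card_zpowers,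
      orderOf_eq_prime hx.pow_three hx.ne]
  have hq : Nat.card (K ⧸ X) = 3 ^ 2 := by
    have h := X.card_eq_card_quotient_mul_card_subgroup
    rw [C.card_core_eq hF hx hK, hXc] at h
    omega
  haveI := IsPGroup.isMulCommutative_of_card_eq_prime_sq hq
  have hcX : (⟨v, hvK⟩ * ⟨w, hwK⟩ * (⟨v, hvK⟩)⁻¹ * (⟨w, hwK⟩)⁻¹ : K) ∈ X := by
    rw [← QuotientGroup.eq_one_iff]
    simp only [QuotientGroup.mk_mul, QuotientGroup.mk_inv]
    rw [IsMulCommutative.is_comm.comm (QuotientGroup.mk ⟨v, hvK⟩ : K ⧸ X) (QuotientGroup.mk ⟨w, hwK⟩)]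
    group
  rw [hX, mem_subgroupOf, mem_zpowers_iff] at hcX
  obtain ⟨n, hn⟩ := hcX
  simp only [Subgroup.coe_mul, Subgroup.coe_inv] at hn
  rw [← hn, ← zpow_mod_orderOf, orderOf_eq_prime hx.pow_three hx.ne]
  rcases (show n % (3 : ℕ) = 0 ∨ n % (3 : ℕ) = 1 ∨ n % (3 : ℕ) = 2 by omega) with h | h | h
  · exfalso
    rw [← zpow_mod_orderOf, orderOf_eq_prime hx.pow_three hx.ne, h, zpow_zero, eq_comm,
      mul_inv_eq_one, mul_inv_eq_iff_eq_mul] at hn
    exact C.no_triangle hF hx hv hw hxv hxw hn
  · rw [h, zpow_one]; exact Same.refl x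
  · rw [h]; exact Or.inr (by rw [zpow_two, hx.inv_eq])

end Ctx

end Cfsg.Agent.InvolGLThree
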