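import Cfsg.Agent.InvolGLThree.Decomp

/-!
# The core of a root centraliser has order 27
-/

set_option autoImplicit false
set_option linter.unusedSectionVars false
set_option linter.style.haveILetI false

namespace Cfsg.Agent.InvolGLThree

open Subgroup

universe u

variable {G : Type u} [Group G] [Finite G] (C : Ctx G) {d d' x : G} (hF : Frame d d')
  (hx : Root d d' x) {K : Subgroup G} (hK : IsCore x K)

namespace Ctx

include C hF hx in
theorem exists_isCore : ∃ K : Subgroup G, IsCore x K := by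
  obtain ⟨K, h1, h2, h3⟩ := C.exists_core hF hx
  exact ⟨K, h1, h2, h3⟩

include C hF hx hK in
theorem root_of_fixPart {y : G} (hy : y ∈ fixPart K d') (hy1 : y ≠ 1) :
    Root d' d y ∧ Commute x y := by
  have hyK : y ∈ K := hy.1
  have hyd' : y * d' = d' * y := mem_centralizer_singleton_iff.1 hy.2
  have h3 : y * y * y = 1 := by
    have : orderOf y ∣ 3 := ((fixPart K d').orderOf_dvd_natCard hy).trans (C.card_fixPart_dvd hF hK)
    have := orderOf_dvd_iff_pow_eq_one.1 this
    rwa [pow_succ, pow_two] at this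
  have hcard : Nat.card (fixPart K d') = 3 := by
    rcases (Nat.dvd_prime Nat.prime_three).1 (C.card_fixPart_dvd hF hK) with h | h
    · exact absurd (mem_bot.1 (Subgroup.eq_bot_of_card_eq _ h ▸ hy)) hy1
    · exact h
  have hoy : orderOf y = 3 := orderOf_eq_prime (by rw [pow_succ, pow_two, h3]) hy1
  have hgen : fixPart K d' = zpowers y := by
    refine (eq_of_le_of_card_ge (zpowers_le.2 hy) ?_).symm
    rw [hcard, Nat.card_zpowers, hoy]
  have hσ : ∀ a, MulAut.conj d a = d * a * d := fun a => by rw [MulAut.conj_apply, hF.inv_d]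
  have hdy : d * y * d ∈ fixPart K d' := by
    refine ⟨(conj_mem_core hF hx hK (Or.inl rfl) hyK).1, mem_centralizer_singleton_iff.2 ?_⟩
    have h0 : MulAut.conj d d' = d' := by
      rw [hσ, hF.comm, mul_assoc, hF.sq, mul_one]
    have := Commute.map (hyd' : Commute y d') (MulAut.conj d).toMonoidHom
    rw [MulEquiv.toMonoidHom_eq_coe, MonoidHom.coe_coe, h0, hσ] at this
    exact this.eq
  have hne : d * y * d ≠ y := fun h => by
    have hyd : y * d = d * y := by
      calc y * d = d * y * d * d := by rw [h]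
        _ = d * y := by rw [mul_assoc, hF.sq, mul_one]
    have hyinv : d' * y * d' = y⁻¹ := by
      rcases C.six_odd hF hx hyd ((hK.mem y).1 hyK).1 ((hK.mem y).1 hyK).2 with h | h | h
      · exact absurd h hy1
      · rw [h]; exact hx.inv
      · rw [h]; exact (hx.inv_root hF).inv
    exact hy1 (eq_one_of_fixed_of_inverted h3
      (by rw [← hyd', mul_assoc, hF.sq', mul_one]) hyinv)
  refine ⟨⟨hy1, h3, hyd'.symm, ?_⟩, (((hK.mem y).1 hyK).1 : Commute y x).symm⟩
  rw [hgen, mem_zpowers_iff] at hdy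
  obtain ⟨n, hn⟩ := hdy
  rw [← zpow_mod_orderOf, hoy] at hn
  rcases (show n % (3 : ℕ) = 0 ∨ n % (3 : ℕ) = 1 ∨ n % (3 : ℕ) = 2 by omega) with h | h | h <;>
    rw [h] at hn
  · rw [zpow_zero, eq_comm, ← hσ, MulEquiv.map_eq_one_iff] at hn
    exact absurd hn hy1
  · rw [zpow_one] at hn
    exact absurd hn.symm hne
  · rw [← hn, eq_inv_iff_mul_eq_one, zpow_two, h3]

include C hF hx hK in
theorem nine_absurd {y : G} (h9 : Nat.card K = 9) (hy : Root d' d y) (hxy : Commute x y) : False := by
  haveI : Fact (Nat.Prime 3) := ⟨Nat.prime_three⟩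
  have hbad : ∀ {f f' w : G}, Frame f f' → Root f f' w →
      ¬ 27 ∣ Nat.card (centralizer ({w} : Set G)) := by
    intro f f' w hf hw h27
    obtain ⟨g, hg⟩ := isConj_iff.1 (C.conjRoot d d' x f f' w hF hx hf hw)
    have hcard : Nat.card (centralizer ({w} : Set G)) = Nat.card (centralizer ({x} : Set G)) := by
      refine (Nat.card_congr (Equiv.subtypeEquiv (MulAut.conj g).toEquiv fun z => ?_)).symm
      rw [MulEquiv.toEquiv_eq_coe, EquivLike.coe_coe, mem_centralizer_singleton_iff,
        mem_centralizer_singleton_iff, show w = MulAut.conj g x from hg.symm, ← map_mul, ← map_mul,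
        (MulAut.conj g).injective.eq_iff]
    rw [hcard, hK.card, h9] at h27
    norm_num at h27
  have hcongr : ∀ (φ : G ≃* G) (w : G), 27 ∣ Nat.card (centralizer ({w} : Set G)) →
      27 ∣ Nat.card (centralizer ({φ w} : Set G)) := by
    intro φ w h
    refine h.trans (dvd_of_eq (Nat.card_congr (Equiv.subtypeEquiv φ.toEquiv fun z => ?_)))
    rw [MulEquiv.toEquiv_eq_coe, EquivLike.coe_coe, mem_centralizer_singleton_iff,
      mem_centralizer_singleton_iff, ← map_mul, ← map_mul, φ.injective.eq_iff]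
  have hinvw : ∀ w : G, 27 ∣ Nat.card (centralizer ({w} : Set G)) →
      27 ∣ Nat.card (centralizer ({w⁻¹} : Set G)) := fun w h =>
    h.trans (Subgroup.card_dvd_of_le fun z hz => mem_centralizer_singleton_iff.2
      (Commute.inv_right (mem_centralizer_singleton_iff.1 hz : Commute z w)).eq)
  -- the nine elements
  have hxK := self_mem_core hx hK
  have hyK := mem_core_of_three hK hxy.symm.eq hy.cube
  have hox : orderOf x = 3 := orderOf_eq_prime hx.pow_three hx.ne
  have hoy : orderOf y = 3 := orderOf_eq_prime hy.pow_three hy.ne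
  have hdxd : d * x * d = x := by rw [hx.comm, mul_assoc, hF.sq, mul_one]
  have hdd : ∀ a b, d * (a * b) * d = d * a * d * (d * b * d) := fun a b => by
    simp only [← mul_assoc]; rw [mul_assoc (d * a) d d, hF.sq, mul_one]
  let φ : Fin 3 × Fin 3 → K := fun p =>
    ⟨x ^ (p.1 : ℕ) * y ^ (p.2 : ℕ), mul_mem (pow_mem hxK _) (pow_mem hyK _)⟩
  have hφ : Function.Bijective φ := by
    refine (Nat.bijective_iff_injective_and_card φ).2 ⟨?_, by simp [h9]⟩
    intro p q hpq
    have h1 : x ^ (p.1 : ℕ) * y ^ (p.2 : ℕ) = x ^ (q.1 : ℕ) * y ^ (q.2 : ℕ) :=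
      congrArg Subtype.val hpq
    have hσ : ∀ a, MulAut.conj d a = d * a * d := fun a => by rw [MulAut.conj_apply, hF.inv_d]
    have h2 := congrArg (MulAut.conj d) h1
    simp only [map_mul, map_pow] at h2
    simp only [hσ, hdxd, hy.inv, inv_pow] at h2
    have hzx : (x ^ (p.1 : ℕ)) ^ 2 = (x ^ (q.1 : ℕ)) ^ 2 := by
      have c1 : ∀ i j : ℕ, Commute (x ^ i) (y ^ j) := fun i j => hxy.pow_pow i j
      calc (x ^ (p.1 : ℕ)) ^ 2
          = (x ^ (p.1 : ℕ) * y ^ (p.2 : ℕ)) * (x ^ (p.1 : ℕ) * (y ^ (p.2 : ℕ))⁻¹) := by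
            rw [mul_assoc, ← mul_assoc (y ^ (p.2 : ℕ)), ← (c1 _ _).eq, mul_assoc,
              mul_inv_cancel, mul_one, pow_two]
        _ = (x ^ (q.1 : ℕ) * y ^ (q.2 : ℕ)) * (x ^ (q.1 : ℕ) * (y ^ (q.2 : ℕ))⁻¹) := by rw [h1, h2]
        _ = (x ^ (q.1 : ℕ)) ^ 2 := by
            rw [mul_assoc, ← mul_assoc (y ^ (q.2 : ℕ)), ← (c1 _ _).eq, mul_assoc,
              mul_inv_cancel, mul_one, pow_two]
    rw [← pow_mul, ← pow_mul, pow_inj_mod, hox] at hzx
    have e1 : (p.1 : ℕ) = q.1 := by have := p.1.2; have := q.1.2; omega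
    rw [e1, mul_right_inj, pow_inj_mod, hoy] at h1
    exact Prod.ext (Fin.ext e1) (Fin.ext (by have := p.2.2; have := q.2.2; omega))
  -- every element of `K`
  have hcases : ∀ w, w ∈ K → w = 1 ∨ Same x w ∨ Same y w ∨ w = x * y ∨ w = (x * y)⁻¹ ∨
      w = x * y⁻¹ ∨ w = (x * y⁻¹)⁻¹ := by
    intro w hw
    obtain ⟨⟨a, b⟩, hab⟩ := hφ.2 ⟨w, hw⟩
    have hw' : w = x ^ (a : ℕ) * y ^ (b : ℕ) := congrArg Subtype.val hab.symm
    have hy2 : y ^ 2 = y⁻¹ := by rw [pow_two, hy.inv_eq]
    have hx2 : x ^ 2 = x⁻¹ := by rw [pow_two, hx.inv_eq]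
    have ha := a.2
    have hb := b.2
    rcases (show (a : ℕ) = 0 ∨ (a : ℕ) = 1 ∨ (a : ℕ) = 2 by omega) with h | h | h <;>
      rcases (show (b : ℕ) = 0 ∨ (b : ℕ) = 1 ∨ (b : ℕ) = 2 by omega) with h' | h' | h' <;>
      simp only [h, h', pow_zero, pow_one, one_mul, mul_one, hx2, hy2] at hw' <;> subst hw'
    · exact Or.inl rfl
    · exact Or.inr (Or.inr (Or.inl (Or.inl rfl)))
    · exact Or.inr (Or.inr (Or.inl (Or.inr rfl)))
    · exact Or.inr (Or.inl (Or.inl rfl))
    · exact Or.inr (Or.inr (Or.inr (Or.inl rfl)))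
    · exact Or.inr (Or.inr (Or.inr (Or.inr (Or.inr (Or.inl rfl)))))
    · exact Or.inr (Or.inl (Or.inr rfl))
    · refine Or.inr (Or.inr (Or.inr (Or.inr (Or.inr (Or.inr ?_)))))
      rw [mul_inv_rev, inv_inv, hxy.inv_left.eq]
    · refine Or.inr (Or.inr (Or.inr (Or.inr (Or.inl ?_))))
      rw [mul_inv_rev, hxy.inv_inv.eq]
  obtain ⟨P, hP⟩ := (IsPGroup.of_card (n := 2) (show Nat.card K = 3 ^ 2 by rw [h9]; rfl)).exists_le_sylow
  have hPc : Nat.card (P : Subgroup G) = 27 := by
    rw [P.card_eq_multiplicity, C.card, Nat.factorization_def _ Nat.prime_three,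
      show (5616 : ℕ) = 3 ^ 3 * 208 by norm_num,
      padicValNat.mul (by norm_num) (by norm_num), padicValNat.prime_pow,
      padicValNat.eq_zero_of_not_dvd (by norm_num)]
    norm_num
  haveI : Nontrivial P := Finite.one_lt_card_iff_nontrivial.1 (by rw [hPc]; norm_num)
  haveI := P.2.center_nontrivial
  obtain ⟨z, hz⟩ := exists_ne (1 : Subgroup.center P)
  set w : G := ((z : P) : G) with hw
  have hwc : ∀ g, g ∈ (P : Subgroup G) → g * w = w * g := fun g hg =>
    congrArg Subtype.val (mem_center_iff.1 z.2 ⟨g, hg⟩)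
  have hwK : w ∈ K := (hK.mem w).2 ⟨(hwc x (hP hxK)).symm, by
    refine Odd.of_dvd_nat (show Odd 27 by decide) ?_
    rw [← hPc]
    exact (P : Subgroup G).orderOf_dvd_natCard (z : P).2⟩
  have hw27 : 27 ∣ Nat.card (centralizer ({w} : Set G)) := by
    rw [← hPc]
    exact card_dvd_of_le fun g hg => mem_centralizer_singleton_iff.2 (hwc g hg)
  have hnS : ∀ {f f' r v : G}, Frame f f' → Root f f' r → Same r v →
      ¬ 27 ∣ Nat.card (centralizer ({v} : Set G)) := by
    intro f f' r v hf hr hs
    rcases hs with rfl | rfl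
    · exact hbad hf hr
    · exact hbad hf (hr.inv_root hf)
  have hdyinv : d * y⁻¹ * d = y := by rw [(hy.inv_root hF.swap).inv, inv_inv]
  have hmix : 27 ∣ Nat.card (centralizer ({x * y} : Set G)) ∧
      27 ∣ Nat.card (centralizer ({x * y⁻¹} : Set G)) := by
    have hflip : ∀ v, 27 ∣ Nat.card (centralizer ({v} : Set G)) →
        27 ∣ Nat.card (centralizer ({d * v * d} : Set G)) := fun v h => by
      have := hcongr (MulAut.conj d) v h
      rwa [MulAut.conj_apply, hF.inv_d] at this
    rcases hcases w hwK with h | h | h | h | h | h | h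
    · exact absurd (Subtype.ext (Subtype.ext h)) hz
    · exact absurd hw27 (hnS hF hx h)
    · exact absurd hw27 (hnS hF.swap hy h)
    all_goals
      rw [h] at hw27
      try (have hw27 := hinvw _ hw27; rw [inv_inv] at hw27)
    · exact ⟨hw27, by simpa [hdd, hdxd, hy.inv] using hflip _ hw27⟩
    · exact ⟨hw27, by simpa [hdd, hdxd, hy.inv] using hflip _ hw27⟩
    · exact ⟨by simpa [hdd, hdxd, hdyinv] using hflip _ hw27, hw27⟩
    · exact ⟨by simpa [hdd, hdxd, hdyinv] using hflip _ hw27, hw27⟩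
  -- normality of `K` in `P`
  obtain ⟨u, huP, huK⟩ := SetLike.exists_of_lt
    (lt_of_le_of_ne hP fun h => by rw [← h, h9] at hPc; omega)
  have hnorm : ((K.subgroupOf (P : Subgroup G))).Normal := by
    refine Subgroup.normal_of_index_eq_minFac_card ?_
    have h1 := Subgroup.card_mul_index (K.subgroupOf (P : Subgroup G))
    rw [Nat.card_congr (subgroupOfEquivOfLe hP).toEquiv, h9, hPc] at h1
    rw [hPc, show (27 : ℕ).minFac = 3 by norm_num]
    omega
  have hu27 : u ^ 27 = 1 := by
    rw [← hPc]; exact congrArg Subtype.val (pow_card_eq_one' (x := (⟨u, huP⟩ : (P : Subgroup G))))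
  have huodd : Odd (orderOf u) :=
    Odd.of_dvd_nat (show Odd 27 by decide) (orderOf_dvd_of_pow_eq_one hu27)
  have hux : u * x ≠ x * u := fun h => huK ((hK.mem u).2 ⟨h, huodd⟩)
  have hconj : ∀ v, v ∈ K → u * v * u⁻¹ ∈ K := fun v hv =>
    hnorm.conj_mem ⟨v, hP hv⟩ hv ⟨u, huP⟩
  have himg : ∀ {f f' r : G}, Frame f f' → Root f f' r → r ∈ K →
      Same x (u * r * u⁻¹) ∨ Same y (u * r * u⁻¹) := by
    intro f f' r hf hr hrK
    have hnot := hbad hf hr
    have hb : ¬ 27 ∣ Nat.card (centralizer ({u * r * u⁻¹} : Set G)) := fun h => hnot (by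
      have := hcongr (MulAut.conj u).symm _ h
      rwa [MulAut.conj_symm_apply, show u⁻¹ * (u * r * u⁻¹) * u = r by group] at this)
    rcases hcases _ (hconj r hrK) with h | h | h | h | h | h | h
    · exact absurd (conj_eq_one_iff.1 h) hr.ne
    · exact Or.inl h
    · exact Or.inr h
    all_goals
      exfalso
      rw [h] at hb
    · exact hb hmix.1
    · exact hb (hinvw _ hmix.1)
    · exact hb hmix.2
    · exact hb (hinvw _ hmix.2)
  -- `u` cannot fix or invert `x`
  have key : ∀ v : G, v = u ∨ v = u * u → ¬ Same x (v * x * v⁻¹) := by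
    intro v hv h
    have hc : Commute (v ^ 2) x := by
      show v ^ 2 * x = x * v ^ 2
      rcases h with h | h
      · have hc' : Commute v x := (mul_inv_eq_iff_eq_mul.1 h : v * x = x * v)
        exact (hc'.pow_left 2).eq
      · have h2 : v * x⁻¹ * v⁻¹ = x := by
          rw [← conj_inv, h, inv_inv]
        have e1 : v * x = x⁻¹ * v := mul_inv_eq_iff_eq_mul.1 h
        have e2 : v * x⁻¹ = x * v := mul_inv_eq_iff_eq_mul.1 h2
        rw [pow_two, mul_assoc, e1, ← mul_assoc, e2, mul_assoc]
    have hcu : Commute u x := by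
      rcases hv with hv | hv <;> rw [hv] at hc
      · have : u = (u ^ 2) ^ 14 := by rw [← pow_mul, show 2 * 14 = 27 + 1 by norm_num, pow_succ, hu27, one_mul]
        rw [this]; exact hc.pow_left 14
      · have : u = ((u * u) ^ 2) ^ 7 := by
          rw [← pow_two, ← pow_mul, ← pow_mul, show 2 * (2 * 7) = 27 + 1 by norm_num, pow_succ, hu27,
            one_mul]
        rw [this]; exact hc.pow_left 7
    exact hux hcu.eq
  have h1 : Same y (u * x * u⁻¹) := (himg hF hx hxK).resolve_left (key u (Or.inl rfl))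
  have h2 : Same x (u * y * u⁻¹) := by
    rcases himg hF.swap hy hyK with h | h
    · exact h
    · exfalso
      -- `x` and `y` have images in the same pair
      have hs : Same x y ∨ False := by
        rcases h1 with a | a <;> rcases h with b | b
        · exact Or.inl (Or.inl ((mul_right_inj u).1 (mul_right_cancel (b.trans a.symm))))
        · refine Or.inl (Or.inr ?_)
          apply (MulAut.conj u).injective
          rw [map_inv, MulAut.conj_apply, MulAut.conj_apply, a, b]
        · refine Or.inl (Or.inr ?_)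
          apply (MulAut.conj u).injective
          rw [map_inv, MulAut.conj_apply, MulAut.conj_apply, a, b, inv_inv]
        · exact Or.inl (Or.inl ((mul_right_inj u).1 (mul_right_cancel (b.trans a.symm))))
      have hsy : Same x y := hs.resolve_right id
      have hxd' : d' * x * d' = x := by
        have : Commute d' x := (hsy.symm.commute_left hy.commute.symm).symm
        rw [this.eq, mul_assoc, hF.sq', mul_one]
      exact hx.ne (eq_one_of_fixed_of_inverted hx.cube hxd' hx.inv)
  refine key (u * u) (Or.inr rfl) ?_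
  rw [show u * u * x * (u * u)⁻¹ = u * (u * x * u⁻¹) * u⁻¹ by group]
  rcases h1 with a | a <;> rw [a]
  · exact h2
  · rw [← conj_inv]
    exact h2.trans (Or.inr rfl)

include C hF hx hK in
theorem card_core_eq : Nat.card K = 27 := by
  rcases C.card_core hF hx hK with h9 | h
  · exfalso
    have hle := C.card_core_le hF hx hK
    rw [h9] at hle
    by_cases hA : Nat.card (fixPart K d') = 1
    · have hB : 1 < Nat.card (fixPart K (d * d')) := by rw [hA] at hle; omega
      haveI := Finite.one_lt_card_iff_nontrivial.1 hB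
      obtain ⟨y, hy⟩ := exists_ne (1 : fixPart K (d * d'))
      obtain ⟨hr, hc⟩ := C.root_of_fixPart hF.third (hx.third hF) hK y.2
        (fun h => hy (Subtype.ext h))
      exact C.nine_absurd hF.third (hx.third hF) hK h9 hr hc
    · have hA' : 1 < Nat.card (fixPart K d') := by
        have : 0 < Nat.card (fixPart K d') := Nat.card_pos
        omega
      haveI := Finite.one_lt_card_iff_nontrivial.1 hA'
      obtain ⟨y, hy⟩ := exists_ne (1 : fixPart K d')
      obtain ⟨hr, hc⟩ := C.root_of_fixPart hF hx hK y.2 (fun h => hy (Subtype.ext h))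
      exact C.nine_absurd hF hx hK h9 hr hc
  · exact h

end Ctx

end Cfsg.Agent.InvolGLThree
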