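import Cfsg.Agent.InvolGLThree.Local
import Cfsg.Agent.InvolGLThree.Frame

/-!
# The local axioms hold in a group with an involution centraliser `GL (2, 3)`
-/

set_option autoImplicit false
set_option linter.unusedSectionVars false

namespace Cfsg.Agent.InvolGLThree

open Cfsg.Agent.GLTwoThree
open Subgroup

universe u

variable {G : Type u} [Group G] [Finite G] {t : G}
variable (e : centralizer ({t} : Set G) ≃* H) (ht : orderOf t = 2)

include ht in
theorem baseFrame : Frame t (aInv e) :=
  ⟨t_mul_self ht, t_ne_one ht, aInv_sq e, aInv_ne_one e, (aInv_ne_t e ht).symm,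
    (commute_jHom e s0).eq⟩

include ht in
theorem exists_transport (hall : ∀ d : G, orderOf d = 2 → IsConj t d) {d d' : G} (hF : Frame d d') :
    ∃ g, g * t * g⁻¹ = d ∧ g * aInv e * g⁻¹ = d' := by
  haveI : Fact (Nat.Prime 2) := ⟨Nat.prime_two⟩
  obtain ⟨g, hg⟩ := isConj_iff.1 (hall d (orderOf_eq_prime (by rw [pow_two]; exact hF.sq) hF.ne))
  set φ := MulAut.conj g with hφ
  have hφt : φ t = d := hg
  have hb : φ.symm d' ∈ centralizer ({t} : Set G) := by
    refine mem_centralizer_singleton_iff.2 (φ.injective ?_)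
    simp only [map_mul, MulEquiv.apply_symm_apply, hφt]
    exact hF.comm.symm
  obtain ⟨i, hi⟩ := exists_el_of_mem e hb
  have hsq : el i * el i = 1 := jHom_injective e (by
    rw [map_mul, hi, ← map_mul, hF.sq', map_one, map_one])
  have hne : el i ≠ 1 := fun h => hF.ne' (φ.symm.injective (by rw [← hi, h, map_one, map_one]))
  rcases involution_cases i hsq hne with h | h
  · refine absurd (φ.symm.injective ?_) hF.dist
    rw [← hi, h, jHom_neg_one e ht, ← hφt, MulEquiv.symm_apply_apply]
  · obtain ⟨c, hc⟩ := isConj_iff.1 (show IsConj s0 (el i) by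
      have := isConj_rep (el i)
      rwa [h, show rep 2 = s0 from rfl] at this)
    refine ⟨g * jHom e c, ?_, ?_⟩
    · calc g * jHom e c * t * (g * jHom e c)⁻¹ = g * (jHom e c * t * (jHom e c)⁻¹) * g⁻¹ := by group
        _ = d := by rw [← (commute_jHom e c).eq, mul_inv_cancel_right, hg]
    · calc g * jHom e c * aInv e * (g * jHom e c)⁻¹
          = g * (jHom e c * jHom e s0 * (jHom e c)⁻¹) * g⁻¹ := by rw [aInv]; group
        _ = φ (φ.symm d') := by rw [← map_inv, ← map_mul, ← map_mul, hc, hi]; rfl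
        _ = d' := φ.apply_symm_apply d'

theorem root_map {d d' x : G} (φ : G ≃* G) (h : Root d d' x) : Root (φ d) (φ d') (φ x) :=
  ⟨fun e0 => h.ne (φ.injective (by rw [e0, map_one])), by rw [← map_mul, ← map_mul, h.cube, map_one],
    by rw [← map_mul, h.comm, map_mul], by rw [← map_mul, ← map_mul, h.inv, map_inv]⟩

include ht in
theorem root_jHom (x : H) : Root t (aInv e) (jHom e x) ↔
    x ≠ 1 ∧ x * x * x = 1 ∧ s0 * x * s0 * x = 1 := by
  constructor
  · intro h
    refine ⟨fun h0 => h.ne (by rw [h0, map_one]), jHom_injective e (by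
      rw [map_mul, map_mul, map_one]; exact h.cube), jHom_injective e ?_⟩
    rw [map_mul, map_mul, map_mul, map_one, show jHom e s0 = aInv e from rfl, h.inv, inv_mul_cancel]
  · rintro ⟨h1, h3, h2⟩
    refine ⟨fun h0 => h1 (jHom_injective e (by rw [h0, map_one])), by
      rw [← map_mul, ← map_mul, h3, map_one], (commute_jHom e x).eq, ?_⟩
    rw [aInv, ← map_mul, ← map_mul]
    exact eq_inv_of_mul_eq_one_left (by rw [← map_mul, h2, map_one])

include ht in
theorem jHom_uP : Root t (aInv e) (jHom e uP) :=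
  (root_jHom e ht uP).2 ⟨h_root_facts.1, h_root_facts.2.1, h_root_facts.2.2.1⟩

include ht in
theorem jHom_uQ : Root t (aInv e) (jHom e uQ) :=
  (root_jHom e ht uQ).2 ⟨h_root_facts.2.2.2.1, h_root_facts.2.2.2.2.1, h_root_facts.2.2.2.2.2.1⟩

include ht in
theorem exists_root_el {x : G} (h : Root t (aInv e) x) :
    ∃ i, jHom e (el i) = x ∧ (el i = uP ∨ el i = uP * uP ∨ el i = uQ ∨ el i = uQ * uQ) := by
  obtain ⟨i, hi⟩ := exists_el_of_mem e (mem_centralizer_singleton_iff.2 h.comm.symm)
  rw [← hi] at h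
  obtain ⟨h1, h3, h2⟩ := (root_jHom e ht _).1 h
  exact ⟨i, hi, h_roots i h1 h3 h2⟩

include e ht in
theorem ctx (hall : ∀ d : G, orderOf d = 2 → IsConj t d) (hcard : Nat.card G = 5616) : Ctx G := by
  have T : ∀ {d d' : G}, Frame d d' → ∃ φ : G ≃* G, φ t = d ∧ φ (aInv e) = d' ∧
      ∀ z, IsConj z (φ z) := fun hF => by
    obtain ⟨g, h1, h2⟩ := exists_transport e ht hall hF
    exact ⟨MulAut.conj g, h1, h2, fun z => isConj_iff.2 ⟨g, rfl⟩⟩
  refine ⟨hcard, ?_, ?_, ?_, ?_, ?_, ?_, ?_⟩
  · intro d d' f f' hd hf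
    obtain ⟨g, h1, h2⟩ := exists_transport e ht hall hd
    obtain ⟨g', h3, h4⟩ := exists_transport e ht hall hf
    refine ⟨g' * g⁻¹, ?_, ?_⟩
    · rw [← h3, ← h1]; group
    · rw [← h4, ← h2]; group
  · intro d d' hF
    obtain ⟨φ, rfl, -, -⟩ := T hF
    rw [← natCard_centralizer e]
    refine (Nat.card_congr (Equiv.subtypeEquiv φ.toEquiv fun z => ?_)).symm
    rw [MulEquiv.toEquiv_eq_coe, EquivLike.coe_coe, mem_centralizer_singleton_iff,
      mem_centralizer_singleton_iff, ← map_mul, ← map_mul, φ.injective.eq_iff]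
  · intro d d' c hF hcd hcd'
    obtain ⟨φ, rfl, rfl, -⟩ := T hF
    obtain ⟨c, rfl⟩ := φ.surjective c
    rw [← map_mul, ← map_mul, φ.injective.eq_iff] at hcd hcd'
    obtain ⟨i, rfl⟩ := exists_el_of_mem e (mem_centralizer_singleton_iff.2 hcd)
    have hcs : el i * s0 = s0 * el i := jHom_injective e (by rw [map_mul, map_mul]; exact hcd')
    rcases h_centralizer_s0 i hcs with h | h | h | h <;> rw [h]
    · exact Or.inl (by rw [map_one, map_one])
    · exact Or.inr (Or.inl (by rw [jHom_neg_one e ht]))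
    · exact Or.inr (Or.inr (Or.inl rfl))
    · exact Or.inr (Or.inr (Or.inr (by rw [map_mul, jHom_neg_one e ht, map_mul]; rfl)))
  · intro d d' hF
    obtain ⟨φ, rfl, rfl, -⟩ := T hF
    refine ⟨φ (jHom e uP), φ (jHom e uQ), root_map φ (jHom_uP e ht), root_map φ (jHom_uQ e ht),
      ?_, fun x hx => ?_⟩
    · intro h
      rcases h with h | h
      · exact h_root_facts.2.2.2.2.2.2.1 (jHom_injective e (φ.injective h))
      · rw [(root_map φ (jHom_uP e ht)).inv_eq, ← map_mul, ← map_mul] at h
        exact h_root_facts.2.2.2.2.2.2.2 (jHom_injective e (φ.injective h))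
    · obtain ⟨y, rfl⟩ := φ.surjective x
      have hy : Root t (aInv e) y := by
        have := root_map φ.symm hx
        simpa using this
      obtain ⟨i, rfl, hi⟩ := exists_root_el e ht hy
      rcases hi with h | h | h | h <;> rw [h]
      · exact Or.inl (Or.inl rfl)
      · exact Or.inl (Or.inr (by rw [(root_map φ (jHom_uP e ht)).inv_eq, map_mul, map_mul]))
      · exact Or.inr (Or.inl rfl)
      · exact Or.inr (Or.inr (by rw [(root_map φ (jHom_uQ e ht)).inv_eq, map_mul, map_mul]))
  · intro d d' x c hF hx hcd hcx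
    obtain ⟨φ, rfl, rfl, -⟩ := T hF
    obtain ⟨x, rfl⟩ := φ.surjective x
    obtain ⟨c, rfl⟩ := φ.surjective c
    rw [← map_mul, ← map_mul, φ.injective.eq_iff] at hcd hcx
    have hy : Root t (aInv e) x := by
      have := root_map φ.symm hx
      simpa using this
    obtain ⟨i, rfl, -⟩ := exists_root_el e ht hy
    obtain ⟨k, rfl⟩ := exists_el_of_mem e (mem_centralizer_singleton_iff.2 hcd)
    obtain ⟨h1, h3, -⟩ := (root_jHom e ht _).1 hy
    obtain ⟨w, hw⟩ := h_conj i h1 h3
    have hki : el k * el i = el i * el k := jHom_injective e (by rw [map_mul, map_mul]; exact hcx)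
    set ψ := MulAut.conj (el w) with hψ
    have hψP : ψ uP = el i := by rw [hψ, MulAut.conj_apply, hw, mul_inv_cancel_right]
    obtain ⟨m, hm⟩ := el_surjective (ψ.symm (el k))
    have hkm : el k = ψ (el m) := by rw [hm, MulEquiv.apply_symm_apply]
    have hmP : el m * uP = uP * el m := ψ.injective (by rw [map_mul, map_mul, hψP, ← hkm, hki])
    have hneg : ψ (-1 : H) = -1 := by
      rw [hψ, MulAut.conj_apply, mul_neg, mul_one, neg_mul, mul_inv_cancel]
    have e1 : (φ (jHom e (el i)))⁻¹ = φ (jHom e (el i * el i)) := by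
      rw [(root_map φ hy).inv_eq, map_mul, map_mul]
    rw [hkm, e1]
    rcases h_root_centralizer m hmP with h | h | h | h | h | h <;> rw [h]
    · exact Or.inl (by rw [map_one, map_one, map_one])
    · exact Or.inr (Or.inl (by rw [hψP]))
    · exact Or.inr (Or.inr (Or.inl (by rw [map_mul, hψP])))
    · exact Or.inr (Or.inr (Or.inr (Or.inl (by rw [hneg, jHom_neg_one e ht]))))
    · exact Or.inr (Or.inr (Or.inr (Or.inr (Or.inl (by
        rw [map_mul ψ, hψP, hneg, map_mul, jHom_neg_one e ht, map_mul])))))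
    · exact Or.inr (Or.inr (Or.inr (Or.inr (Or.inr (by
        rw [map_mul ψ, map_mul ψ, hψP, hneg, map_mul (jHom e), jHom_neg_one e ht, map_mul])))))
  · intro d d' x y hF hx hy hxy
    obtain ⟨φ, rfl, rfl, -⟩ := T hF
    obtain ⟨x, rfl⟩ := φ.surjective x
    obtain ⟨y, rfl⟩ := φ.surjective y
    have hx' : Root t (aInv e) x := by simpa using root_map φ.symm hx
    have hy' : Root t (aInv e) y := by simpa using root_map φ.symm hy
    obtain ⟨i, rfl, hi⟩ := exists_root_el e ht hx'
    obtain ⟨k, rfl, hk⟩ := exists_root_el e ht hy'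
    have hik : el k ≠ el i := fun h => hxy (Or.inl (by rw [h]))
    have hik2 : el k ≠ el i * el i := fun h => hxy (Or.inr (by
      rw [(root_map φ hx').inv_eq, h, map_mul, map_mul]))
    rcases h_pair (el i) (by simpa using hi) (el k) (by simpa using hk) hik hik2 with h | h
    · exact Or.inl (by
        rw [← map_mul, ← map_mul, ← map_pow, ← map_pow, show (el i * el k) ^ 4 = 1 by
          rw [← h]; simp only [pow_succ, pow_zero, one_mul, mul_assoc], map_one, map_one])
    · exact Or.inr (by
        rw [← map_mul, ← map_mul, ← map_pow, ← map_pow, show (el i * el k) ^ 6 = 1 by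
          rw [← h]; simp only [pow_succ, pow_zero, one_mul, mul_assoc], map_one, map_one])
  · intro d d' x f f' y hd hx hf hy
    have key : ∀ {d d' x : G}, Frame d d' → Root d d' x → IsConj (jHom e uP) x := by
      intro d d' x hd hx
      obtain ⟨φ, rfl, rfl, hφ⟩ := T hd
      obtain ⟨x, rfl⟩ := φ.surjective x
      have hx' : Root t (aInv e) x := by simpa using root_map φ.symm hx
      obtain ⟨i, rfl, -⟩ := exists_root_el e ht hx'
      obtain ⟨h1, h3, -⟩ := (root_jHom e ht _).1 hx'
      obtain ⟨w, hw⟩ := h_conj i h1 h3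
      refine ((jHom e).map_isConj ?_).trans (hφ _)
      exact isConj_iff.2 ⟨el w, by rw [hw, mul_inv_cancel_right]⟩
    exact (key hd hx).symm.trans (key hf hy)

end Cfsg.Agent.InvolGLThree
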